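import Cfsg.Agent.H428.HT.Norm

/-!
# S4933, unitary primes: the two constituents (helper428)

`two_of_norm`, `isCharacter_hc`; **`exists_two`** : `R(c ⊗ χ) = X₁ + X₂`, `X₁ ≠ X₂` irreducible;
`inner_hc_irr` : the inner products for irreducible `χ₁`, `χ₂`; `inner_hc_one`, `exists_two_one` : `χ = 1`.
-/

set_option autoImplicit false

open scoped ComplexConjugate
open Cfsg

namespace Cfsg.Agent.H428.HT

open Cfsg.Agent.OddOrderCharacters.Clifford Cfsg.Agent.Characters MulAction Module Cfsg.Agent.H53.HC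
open Cfsg.Agent.H477.HC Cfsg.Agent.H477.HC.CForm Cfsg.Agent.H749.Two

universe u v w

/-- a character of norm `2` -/
theorem two_of_norm {G : Type*} [Group G] [Fintype G] {R : G → ℂ} (hR : IsCharacter G R) (h : classInner R R = 2) :
    ∃ X₁ X₂ : IrrCharacter G, X₁ ≠ X₂ ∧ R = (X₁ : G → ℂ) + (X₂ : G → ℂ) := by
  obtain ⟨X, hX, h1, -⟩ := exists_common hR hR (by rw [h]; exact two_ne_zero)
  have h2 := isCharacter_sub_irr hR hX h1
  obtain ⟨n, hn⟩ := Core.classInner_isNat hR (Core.isIrr_isCharacter hX)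
  obtain ⟨m, hm⟩ := Core.classInner_isNat h2 h2
  have h3 : classInner X R = n := by
    rw [← Core.classInner_conj_symm, hn, Complex.conj_natCast]
  have hn0 : n ≠ 0 := by
    rintro rfl
    exact h1 (by rw [hn, Nat.cast_zero])
  have h4 : (m : ℂ) + 2 * n = 3 := by
    rw [← hm, Core.classInner_sub_left, Core.classInner_sub_right, Core.classInner_sub_right, h, hn, h3,
      Core.classInner_irr_self hX]
    ring
  have h5 : m + 2 * n = 3 := by exact_mod_cast h4
  have hn1 : n = 1 := by omega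
  have hm1 : m = 1 := by omega
  rw [hm1, Nat.cast_one] at hm
  have h6 := Core.isIrr_of_classInner_self h2 hm
  refine ⟨⟨X, hX⟩, ⟨R - X, h6⟩, fun e => ?_, ?_⟩
  · have e1 : X = R - X := congrArg Subtype.val e
    have h7 : classInner (R - X) X = 0 := by
      rw [Core.classInner_sub_left, hn, hn1, Core.classInner_irr_self hX, Nat.cast_one, sub_self]
    rw [← e1, Core.classInner_irr_self hX] at h7
    exact one_ne_zero h7
  · change R = X + (R - X)
    rw [add_sub_cancel]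

section Pair

variable {K : Type u} [Field K] {V : Type v} [AddCommGroup V] [Module K V] {X : Type w} [AddCommGroup X] [Module K X]
variable {F : CForm K V} {F' : CForm K X} {j : X →ₗ[K] V} {W₀ : Submodule K V} {k : ℕ}

/-- the Harish-Chandra induced function is a character -/
theorem isCharacter_hc [FiniteDimensional K V] [Fintype F.iso] [Fintype (F.Om k)] {c : GL (Fin k) K → ℂ}
    (hcf : IsClassFunction _ c) {ψ : F.iso → Submodule K V → ℂ}
    (hψ : ∀ x g W, ψ (x * g * x⁻¹) (W.map (F.iso.subtype x : V →ₗ[K] V)) = ψ g W)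
    (hW₀ : W₀ ∈ F.Om k)
    (hch : IsCharacter (stabW F.iso.subtype W₀) (fun g => flagTerm F.iso.subtype c g W₀ * ψ g W₀)) :
    IsCharacter F.iso (F.hc c ψ) := by
  classical
  let _ := subAct F.iso.subtype (F.Om k) F.Om_map
  have : IsPretransitive F.iso (F.Om k) := by
    refine ⟨fun W W' => ?_⟩
    obtain ⟨g, hg⟩ := F.trans_Om hW₀ W.2
    obtain ⟨g', hg'⟩ := F.trans_Om hW₀ W'.2
    refine ⟨g' * g⁻¹, ?_⟩
    have e1 : g • (⟨W₀, hW₀⟩ : F.Om k) = W := Subtype.ext hg
    have e2 : g' • (⟨W₀, hW₀⟩ : F.Om k) = W' := Subtype.ext hg'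
    rw [← e1, mul_smul, inv_smul_smul, e2]
  rw [hc_eq_orbSum F, orbSum_eq_indFun (fun g (W : F.Om k) => flagTerm F.iso.subtype c g W.1 * ψ g W.1)
    (fun x g W => congrArg₂ (· * ·) (flagTerm_conj F.iso.subtype hcf x g W.1) (hψ x g W.1)) ⟨W₀, hW₀⟩]
  refine Cfsg.Agent.S0148.result _ _ ?_
  let f : stabilizer F.iso (⟨W₀, hW₀⟩ : F.Om k) →* stabW F.iso.subtype W₀ :=
    { toFun := fun g => ⟨g, congrArg Subtype.val (mem_stabilizer_iff.1 g.2)⟩
      map_one' := rfl
      map_mul' := fun _ _ => rfl }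
  exact Core.isCharacter_comp f hch

theorem isCharacter_psf [FiniteDimensional K V] [Finite V] {c : GL (Fin k) K → ℂ}
    (hc : IsCharacter _ c) {ρ : stabW F.iso.subtype W₀ →* F'.iso} {χ : F'.iso → ℂ} (hχ : IsCharacter _ χ)
    (hW₀ : W₀ ∈ F.Om k) :
    IsCharacter (stabW F.iso.subtype W₀)
      (fun g => flagTerm F.iso.subtype c g W₀ * psf F W₀ (χ ∘ ρ) g W₀) := by
  have hcl1 : IsClassFunction _ (χ ∘ ρ) := Core.isCharacter_isClassFunction (Core.isCharacter_comp ρ hχ)
  have h1 := Core.isCharacter_mul (isCharacter_cl (F := F) hc hW₀.2 (stabW F.iso.subtype W₀) le_rfl)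
    (Core.isCharacter_comp ρ hχ)
  have h2 : (fun g : stabW F.iso.subtype W₀ => flagTerm F.iso.subtype c g W₀ * psf F W₀ (χ ∘ ρ) g W₀) =
      (fun g : stabW F.iso.subtype W₀ => flagTerm F.iso.subtype c g W₀) * (χ ∘ ρ) := by
    funext g
    rw [psf_self hcl1]
    rfl
  rw [h2]
  exact h1

/-- **the inner products** for irreducible characters -/
theorem inner_hc_irr (h : Cmp F F' j W₀) [FiniteDimensional K V] [FiniteDimensional K X] [Finite V] [Finite K]
    (hk : 2 ≤ k) {c : GL (Fin k) K → ℂ} (hc : IsIrrCharacter _ c) (hcusp : IsCusp c) (hdual : c ∘ F.iota k = c)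
    {ρ : stabW F.iso.subtype W₀ →* F'.iso}
    (hρ1 : ∀ (g : stabW F.iso.subtype W₀) x, ((g : F.iso) : V ≃ₗ[K] V) (j x) - j ((ρ g : X ≃ₗ[K] X) x) ∈ W₀)
    (hρ2 : ∀ g : stabW F.iso.subtype W₀, (g : F.iso) ∈ F.TT W₀ → ρ g = 1)
    (hρ3 : ∀ (a : W₀ ≃ₗ[K] W₀) (b : F'.iso), ∃ g : stabW F.iso.subtype W₀, ρ g = b ∧
        ∀ w : W₀, ((g : F.iso) : V ≃ₗ[K] V) w = a w)
    [Fintype F.iso] [Fintype F'.iso] [Fintype (F.Om k)] [DecidableEq (IrrCharacter F'.iso)]
    (χ₁ χ₂ : IrrCharacter F'.iso)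
    (h₁ : ∃ θ : F'.iso → ℂ, IsCharacter _ θ ∧ ∀ g : F'.iso, (χ₁ : F'.iso → ℂ) g + θ g =
      (Nat.card {U : Submodule K X // Mx F' U ∧ U.map (F'.iso.subtype g : X →ₗ[K] X) = U} : ℂ))
    (h₂ : ∃ θ : F'.iso → ℂ, IsCharacter _ θ ∧ ∀ g : F'.iso, (χ₂ : F'.iso → ℂ) g + θ g =
      (Nat.card {U : Submodule K X // Mx F' U ∧ U.map (F'.iso.subtype g : X →ₗ[K] X) = U} : ℂ))
    (hW₀ : W₀ ∈ F.Om k) :
    classInner (F.hc c (psf F W₀ ((χ₁ : F'.iso → ℂ) ∘ ρ))) (F.hc c (psf F W₀ ((χ₂ : F'.iso → ℂ) ∘ ρ))) =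
      if χ₁ = χ₂ then 2 else 0 := by
  obtain ⟨θ₁, hθ₁, e1⟩ := h₁
  obtain ⟨θ₂, hθ₂, e2⟩ := h₂
  rw [inner_hc_psf h hk hc hcusp hdual hρ1 hρ2 hρ3 (Core.isIrr_isCharacter χ₁.2) (Core.isIrr_isCharacter χ₂.2)
    hθ₁ hθ₂ e1 e2 hW₀]
  by_cases e : χ₁ = χ₂
  · rw [if_pos e, e, Core.classInner_irr_self χ₂.2, mul_one]
  · rw [if_neg e, Core.classInner_irr_ne χ₁.2 χ₂.2 (fun e' => e (Subtype.ext e')), mul_zero]

/-- **the two constituents** -/
theorem exists_two (h : Cmp F F' j W₀) [FiniteDimensional K V] [FiniteDimensional K X] [Finite V] [Finite K]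
    (hk : 2 ≤ k) {c : GL (Fin k) K → ℂ} (hc : IsIrrCharacter _ c) (hcusp : IsCusp c) (hdual : c ∘ F.iota k = c)
    {ρ : stabW F.iso.subtype W₀ →* F'.iso}
    (hρ1 : ∀ (g : stabW F.iso.subtype W₀) x, ((g : F.iso) : V ≃ₗ[K] V) (j x) - j ((ρ g : X ≃ₗ[K] X) x) ∈ W₀)
    (hρ2 : ∀ g : stabW F.iso.subtype W₀, (g : F.iso) ∈ F.TT W₀ → ρ g = 1)
    (hρ3 : ∀ (a : W₀ ≃ₗ[K] W₀) (b : F'.iso), ∃ g : stabW F.iso.subtype W₀, ρ g = b ∧
        ∀ w : W₀, ((g : F.iso) : V ≃ₗ[K] V) w = a w)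
    [Fintype F.iso] [Fintype F'.iso] [Fintype (F.Om k)] (χ : IrrCharacter F'.iso)
    (h₁ : ∃ θ : F'.iso → ℂ, IsCharacter _ θ ∧ ∀ g : F'.iso, (χ : F'.iso → ℂ) g + θ g =
      (Nat.card {U : Submodule K X // Mx F' U ∧ U.map (F'.iso.subtype g : X →ₗ[K] X) = U} : ℂ))
    (hW₀ : W₀ ∈ F.Om k) :
    ∃ X₁ X₂ : IrrCharacter F.iso, X₁ ≠ X₂ ∧
      F.hc c (psf F W₀ ((χ : F'.iso → ℂ) ∘ ρ)) = (X₁ : F.iso → ℂ) + (X₂ : F.iso → ℂ) := by
  classical
  have hχ := Core.isIrr_isCharacter χ.2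
  have hcl : IsClassFunction _ ((χ : F'.iso → ℂ) ∘ ρ) := Core.isCharacter_isClassFunction (Core.isCharacter_comp ρ hχ)
  refine two_of_norm (isCharacter_hc (Core.isIrr_isClassFunction hc) (psf_conj hcl) hW₀
    (isCharacter_psf (Core.isIrr_isCharacter hc) hχ hW₀)) ?_
  rw [inner_hc_irr h hk hc hcusp hdual hρ1 hρ2 hρ3 χ χ h₁ h₁ hW₀, if_pos rfl]

open Classical in
/-- **the norm for `χ = 1`** -/
theorem inner_hc_one [FiniteDimensional K V] [Finite V] [Finite K]
    (hk : 2 ≤ k) {c : GL (Fin k) K → ℂ} (hc : IsIrrCharacter _ c) (hcusp : IsCusp c) (hdual : c ∘ F.iota k = c)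
    [Fintype F.iso] [Fintype (F.Om k)] (hW₀ : W₀ ∈ F.Om k) :
    classInner (F.hc c (fun _ _ => 1)) (F.hc c (fun _ _ => 1)) = 2 := by
  have hcc := Core.isIrr_isCharacter hc
  have hcf := Core.isIrr_isClassFunction hc
  let _ : Fintype (GL (Fin k) K) := Fintype.ofFinite _
  let _ : Fintype (stabW F.iso.subtype W₀) := Fintype.ofFinite _
  have h1 := inner_hc (F := F) (W₀ := W₀) (ψ₁ := fun _ _ => 1) (ψ₂ := fun _ _ => 1) hcf (fun _ _ _ => rfl)
    (fun _ _ _ => rfl) hW₀
  let O : Type _ := {W' : F.Om k // W₀ ⊓ F.perp W'.1 = ⊥}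
  let _ : Fintype O := Fintype.ofFinite _
  let _ : MulAction (stabW F.iso.subtype W₀) O :=
    { smul := fun g W' => ⟨⟨W'.1.1.map (F.iso.subtype (g : F.iso) : V →ₗ[K] V), F.Om_map _ _ W'.1.2⟩,
        opp_map g.2 W'.2⟩
      one_smul := fun W' => Subtype.ext (Subtype.ext (Submodule.map_id _))
      mul_smul := fun g g' W' => Subtype.ext (Subtype.ext (map_mul_apply F.iso.subtype (g : F.iso) g' W'.1.1)) }
  obtain ⟨W₁, hW₁, hopp⟩ := F.exists_opp hW₀
  have htr : IsPretransitive (stabW F.iso.subtype W₀) O := by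
    refine ⟨fun W W' => ?_⟩
    obtain ⟨u, hu1, hu2, hu3⟩ := unip_trans (F := F) hW₀ W.1.2 W'.1.2 W.2 W'.2
    exact ⟨⟨u, (F.mem_TT_of hW₀.1 hu3).1⟩, Subtype.ext (Subtype.ext hu2)⟩
  have h2 := sum_fix (P := stabW F.iso.subtype W₀) (O := O) ⟨⟨W₁, hW₁⟩, hopp⟩
  have hsq : ∀ {L : Type v} [Group L] [Fintype L] (f : L →* GL (Fin k) K), Function.Surjective f →
      ∑ l : L, c (f l) * conj (c (f l)) = Nat.card L := by
    intro L _ _ f hf
    have e1 := Core.classInner_irr_self (Core.isIrr_comp f hf hc)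
    have e2 := sum_eq_inner (c ∘ f) (c ∘ f)
    rw [e1, mul_one] at e2
    exact e2
  have h3 : ∀ W' : F.Om k, ∑ t : stabW F.iso.subtype W₀, (flagTerm F.iso.subtype c t W₀ * 1) *
        conj (flagTerm F.iso.subtype c t W'.1 * 1) =
      (if W'.1 = W₀ then (Nat.card (stabW F.iso.subtype W₀) : ℂ) else 0) +
      (if W₀ ⊓ F.perp W'.1 = ⊥ then (∑ t : stabW F.iso.subtype W₀,
        (if W'.1.map (F.iso.subtype (t : F.iso) : V →ₗ[K] V) = W'.1 then (1 : ℂ) else 0)) else 0) := by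
    rintro ⟨W', hW'⟩
    have hk0 : W₀ ≠ ⊥ := by
      intro e
      have := hW₀.2
      rw [e, finrank_bot] at this
      omega
    by_cases e0 : W' = W₀
    · have e1 : ¬ W₀ ⊓ F.perp W' = ⊥ := by
        rw [e0, inf_eq_left.2 hW₀.1.le_perp]
        exact hk0
      rw [if_pos e0, if_neg e1, add_zero]
      let b : Basis (Fin k) K W₀ := finBasisOfFinrankEq K W₀ hW₀.2
      let f : stabW F.iso.subtype W₀ →* GL (Fin k) K := (glE b).toMonoidHom.comp (resHom F.iso.subtype W₀)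
      have hf : Function.Surjective f := by
        intro A
        obtain ⟨a, rfl⟩ := (glE b).surjective A
        obtain ⟨g, hg⟩ := F.exists_levi' hW₀.1 a
        have hgs : g ∈ stabW F.iso.subtype W₀ := map_eq_of_le F.iso.subtype fun w hw => by
          change (g : V ≃ₗ[K] V) w ∈ W₀
          rw [hg ⟨w, hw⟩]
          exact (a ⟨w, hw⟩).2
        refine ⟨⟨g, hgs⟩, ?_⟩
        change glE b (res (F.iso.subtype g) W₀ _) = glE b a
        congr 1
        ext w
        exact hg w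
      rw [← hsq f hf]
      refine Finset.sum_congr rfl fun t _ => ?_
      change (flagTerm F.iso.subtype c t W₀ * 1) * conj (flagTerm F.iso.subtype c t W' * 1) = _
      have e3 : flagTerm F.iso.subtype c (t : F.iso) W₀ = c (f t) := by
        rw [flagTerm_of F.iso.subtype c t.2, cl_eq hcf b]
        rfl
      rw [e0, e3, mul_one]
    · rw [if_neg e0, zero_add]
      let _ : Fintype ↥(stabW F.iso.subtype W₀ ⊓ stabW F.iso.subtype W') := Fintype.ofFinite _
      have hcut := sum_inf_eq (stabW F.iso.subtype W₀) (stabW F.iso.subtype W')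
        (fun t => (flagTerm F.iso.subtype c t W₀ * 1) *
          conj (flagTerm F.iso.subtype c t W' * 1)) (fun g _ hg => by
          have : flagTerm F.iso.subtype c g W' = 0 := dif_neg hg
          rw [this, zero_mul, map_zero, mul_zero])
      change ∑ t : stabW F.iso.subtype W₀, (flagTerm F.iso.subtype c t W₀ * 1) *
        conj (flagTerm F.iso.subtype c t W' * 1) = _
      rw [hcut]
      by_cases e1 : W₀ ⊓ F.perp W' = ⊥
      · rw [if_pos e1]
        change _ = ∑ t : stabW F.iso.subtype W₀,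
          (if W'.map (F.iso.subtype (t : F.iso) : V →ₗ[K] V) = W' then (1 : ℂ) else 0)
        rw [sum_inf_eq (stabW F.iso.subtype W₀) (stabW F.iso.subtype W')
          (fun t => (if W'.map (F.iso.subtype (t : F.iso) : V →ₗ[K] V) = W' then (1 : ℂ) else 0))
          (fun g _ hg => if_neg hg)]
        have hcard : ∑ t : ↥(stabW F.iso.subtype W₀ ⊓ stabW F.iso.subtype W'),
            (if W'.map (F.iso.subtype (t : F.iso) : V →ₗ[K] V) = W' then (1 : ℂ) else 0) =
            Nat.card ↥(stabW F.iso.subtype W₀ ⊓ stabW F.iso.subtype W') := by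
          rw [Finset.sum_congr rfl fun t _ => if_pos t.2.2, Finset.sum_const, Finset.card_univ,
            ← Nat.card_eq_fintype_card, nsmul_eq_mul, mul_one]
        rw [hcard]
        obtain ⟨b, b', hb⟩ := exists_dual_basis (F := F) hW₀.2 hW'.2 e1
        have h0' := opp_symm (F := F) hW₀.2 hW'.2 e1
        let f : ↥(stabW F.iso.subtype W₀ ⊓ stabW F.iso.subtype W') →* GL (Fin k) K :=
          (glE b).toMonoidHom.comp ((resHom F.iso.subtype W₀).comp (Subgroup.inclusion inf_le_left))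
        have hf : Function.Surjective f := by
          intro A
          obtain ⟨a, rfl⟩ := (glE b).surjective A
          obtain ⟨g, hg1, -, -, hg2⟩ := F.exists_levi hW₀.1 hW'.1
            (fun w hw hw' => by
              have : w ∈ W₀ ⊓ F.perp W' := ⟨hw, hw'⟩
              rw [e1] at this
              exact (Submodule.mem_bot K).1 this)
            (fun w hw hw' => by
              have : w ∈ W' ⊓ F.perp W₀ := ⟨hw, fun w' hw'' => F.B_eq_zero (hw' w' hw'')⟩
              rw [h0'] at this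
              exact (Submodule.mem_bot K).1 this) a
          refine ⟨⟨g, hg2.1.1, hg2.2.1⟩, ?_⟩
          change glE b (res (F.iso.subtype g) W₀ _) = glE b a
          congr 1
          ext w
          exact hg1 w
        rw [← hsq f hf]
        refine Finset.sum_congr rfl fun l _ => ?_
        have e3 : flagTerm F.iso.subtype c (l : F.iso) W₀ = c (f l) := by
          rw [flagTerm_of F.iso.subtype c l.2.1, cl_eq hcf b]
          rfl
        have e4 : flagTerm F.iso.subtype c (l : F.iso) W' = c (f l) := by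
          rw [flagTerm_of F.iso.subtype c l.2.2, cl_eq hcf b', glE_opp hb l.2.1 l.2.2]
          exact congrFun hdual _
        rw [e3, e4, mul_one]
      · rw [if_neg e1]
        have hψT : ∀ W ∈ F.Om k, ∀ g ∈ F.TT W, (fun (_ : F.iso) (_ : Submodule K V) => (1 : ℂ)) g W =
            (fun (_ : F.iso) (_ : Submodule K V) => (1 : ℂ)) 1 W := fun _ _ _ _ => rfl
        have key : F.Van c (fun _ _ => 1) W₀ W' := by
          by_cases h1 : W₀ ⊓ F.perp W' = W₀
          · have h1' : W₀ ≤ F.perp W' := inf_eq_left.1 h1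
            by_cases h2 : W₀ ⊓ W' = ⊥
            · exact van_case3 hk hcf hcusp (fun _ _ => rfl) hW₀ hW' h1' h2
            · exact van_case2 hcf hcusp hψT hW₀ hW' h1' h2 e0
          · exact van_case1 hcf hcusp hψT hW₀ hW' e1 h1
        obtain ⟨L, hL1, hL2, hL3⟩ := key
        have c1 : IsCharacter ↥(stabW F.iso.subtype W₀ ⊓ stabW F.iso.subtype W')
            (fun l => flagTerm F.iso.subtype c l W₀) := isCharacter_cl hcc hW₀.2 _ inf_le_left
        have c2 : IsCharacter ↥(stabW F.iso.subtype W₀ ⊓ stabW F.iso.subtype W')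
            (fun l => flagTerm F.iso.subtype c l W') := isCharacter_cl hcc hW'.2 _ inf_le_right
        have hz := sum_zero_of_sub (F := F) (A₁ := fun l => flagTerm F.iso.subtype c l W₀)
          (A₂ := fun l => flagTerm F.iso.subtype c l W') _ c1 c2 L (le_inf hL1 hL2) (by
            intro _
            rw [← hL3]
            refine Finset.sum_congr rfl fun l _ => ?_
            rw [mul_one, mul_one])
        rw [← hz]
        refine Finset.sum_congr rfl fun l _ => ?_
        rw [mul_one, mul_one]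
  rw [Finset.sum_congr rfl fun W' _ => h3 W', Finset.sum_add_distrib] at h1
  have h4 : ∑ W' : F.Om k, (if W'.1 = W₀ then (Nat.card (stabW F.iso.subtype W₀) : ℂ) else 0) =
      (Nat.card (stabW F.iso.subtype W₀) : ℂ) := by
    rw [Finset.sum_eq_single (⟨W₀, hW₀⟩ : F.Om k)]
    · exact if_pos rfl
    · intro W' _ hW'
      exact if_neg fun e => hW' (Subtype.ext e)
    · intro h; exact absurd (Finset.mem_univ _) h
  have h5 : ∑ W' : F.Om k, (if W₀ ⊓ F.perp W'.1 = ⊥ then (∑ t : stabW F.iso.subtype W₀,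
        (if W'.1.map (F.iso.subtype (t : F.iso) : V →ₗ[K] V) = W'.1 then (1 : ℂ) else 0))
        else 0) = (Nat.card (stabW F.iso.subtype W₀) : ℂ) := by
    rw [← Finset.sum_filter, Finset.sum_subtype (p := fun W' : F.Om k => W₀ ⊓ F.perp W'.1 = ⊥) _ (fun W' => by simp)
      (fun W' : F.Om k => (∑ t : stabW F.iso.subtype W₀,
        (if W'.1.map (F.iso.subtype (t : F.iso) : V →ₗ[K] V) = W'.1 then (1 : ℂ) else 0)))]
    rw [← h2]
    refine Finset.sum_congr rfl fun W' _ => Finset.sum_congr rfl fun t _ => ?_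
    by_cases e : W'.1.1.map (F.iso.subtype (t : F.iso) : V →ₗ[K] V) = W'.1.1
    · have e' : t • W' = W' := Subtype.ext (Subtype.ext e)
      rw [if_pos e, if_pos e']
    · have e' : ¬ t • W' = W' := fun e' => e (congrArg (fun z : O => z.1.1) e')
      rw [if_neg e, if_neg e']
  rw [h4, h5] at h1
  have h6 : (Nat.card (stabW F.iso.subtype W₀) : ℂ) ≠ 0 := card_ne_zero'
  apply mul_left_cancel₀ h6
  rw [h1]
  ring

/-- **the two constituents for `χ = 1`** -/
theorem exists_two_one [FiniteDimensional K V] [Finite V] [Finite K]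
    (hk : 2 ≤ k) {c : GL (Fin k) K → ℂ} (hc : IsIrrCharacter _ c) (hcusp : IsCusp c) (hdual : c ∘ F.iota k = c)
    [Fintype F.iso] [Fintype (F.Om k)] (hW₀ : W₀ ∈ F.Om k) :
    ∃ X₁ X₂ : IrrCharacter F.iso, X₁ ≠ X₂ ∧ F.hc c (fun _ _ => 1) = (X₁ : F.iso → ℂ) + (X₂ : F.iso → ℂ) := by
  have hcc := Core.isIrr_isCharacter hc
  refine two_of_norm (isCharacter_hc (Core.isIrr_isClassFunction hc) (fun _ _ _ => rfl) hW₀ ?_)
    (inner_hc_one hk hc hcusp hdual hW₀)
  have h1 := isCharacter_cl (F := F) hcc hW₀.2 (stabW F.iso.subtype W₀) le_rfl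
  have h2 : (fun g : stabW F.iso.subtype W₀ => flagTerm F.iso.subtype c g W₀ * 1) =
      (fun g : stabW F.iso.subtype W₀ => flagTerm F.iso.subtype c g W₀) := by
    funext g
    rw [mul_one]
  rw [h2]
  exact h1

end Pair

end Cfsg.Agent.H428.HT
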