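import Cfsg.Agent.H428.HT.Opp

/-!
# S4933, unitary primes: the inner products of the Harish-Chandra induced characters (helper428)

`inner_hc_psf` : for `c` cuspidal, `c ∘ ι = c`, and `χ₁`, `χ₂` summands of the permutation character of `F'.iso` on the
maximal totally singular subspaces, `⟨R(c ⊗ χ₁), R(c ⊗ χ₂)⟩ = 2 ⟨χ₁, χ₂⟩`.
-/

set_option autoImplicit false

open scoped ComplexConjugate
open Cfsg

namespace Cfsg.Agent.H428.HT

open Cfsg.Agent.OddOrderCharacters.Clifford Cfsg.Agent.Characters MulAction Module Cfsg.Agent.H53.HC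
open Cfsg.Agent.H477.HC Cfsg.Agent.H477.HC.CForm Cfsg.Agent.H749.Two

universe u v w

section General

open Classical in
/-- **the inner product of two orbit sums** -/
theorem inner_orbSum {G : Type u} [Group G] {Ω : Type v} [MulAction G Ω] [Fintype G] [Fintype Ω] [IsPretransitive G Ω]
    (φ₁ φ₂ : G → Ω → ℂ) (h₁ : ∀ (x g : G) (ω : Ω), φ₁ (x * g * x⁻¹) (x • ω) = φ₁ g ω)
    (h₂ : ∀ (x g : G) (ω : Ω), φ₂ (x * g * x⁻¹) (x • ω) = φ₂ g ω) (ω₀ : Ω) (T : Subgroup G) [Fintype T]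
    (hT : ∀ g, g ∈ T ↔ g • ω₀ = ω₀) :
    (Nat.card T : ℂ) * classInner (orbSum φ₁) (orbSum φ₂) =
      ∑ ω : Ω, ∑ t : T, φ₁ t ω₀ * conj (if (t : G) • ω = ω then φ₂ t ω else 0) := by
  have e : T = stabilizer G ω₀ := by
    ext g
    rw [hT, mem_stabilizer_iff]
  subst e
  have hcl : IsClassFunction G (orbSum φ₂) := by
    rw [orbSum_eq_indFun φ₂ h₂ ω₀]
    exact isClassFunction_indFun _ _
  rw [orbSum_eq_indFun φ₁ h₁ ω₀, classInner_indFun _ _ _ hcl, classInner_apply, mul_inv_cancel_left₀ card_ne_zero',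
    Finset.sum_comm]
  refine Finset.sum_congr rfl fun t _ => ?_
  rw [← Finset.mul_sum]
  unfold orbSum
  rw [map_sum]
  rfl

open Classical in
/-- the fixed points of a transitive group -/
theorem sum_fix {P : Type u} [Group P] {O : Type v} [MulAction P O] [Fintype P] [Fintype O] [IsPretransitive P O]
    (ω₀ : O) : ∑ ω : O, ∑ t : P, (if t • ω = ω then (1 : ℂ) else 0) = Nat.card P := by
  have h1 : orbSum (fun (_ : P) (_ : O) => (1 : ℂ)) = indFun (stabilizer P ω₀) (stabFun (fun _ _ => 1) ω₀) :=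
    orbSum_eq_indFun _ (fun _ _ _ => rfl) ω₀
  have h2 := classInner_indFun (stabilizer P ω₀) (stabFun (fun _ _ => (1 : ℂ)) ω₀) (1 : P → ℂ) (fun _ _ => rfl)
  rw [← h1, classInner_apply, classInner_apply] at h2
  have h3 : ∑ h : stabilizer P ω₀, stabFun (fun _ _ => (1 : ℂ)) ω₀ h * conj ((1 : P → ℂ) h) =
      Nat.card (stabilizer P ω₀) := by
    rw [Nat.card_eq_fintype_card]
    simp [stabFun]
  rw [h3, inv_mul_cancel₀ card_ne_zero'] at h2
  have h4 : ∑ g : P, orbSum (fun (_ : P) (_ : O) => (1 : ℂ)) g * conj ((1 : P → ℂ) g) = Nat.card P := by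
    have h5 := congrArg (fun z => (Nat.card P : ℂ) * z) h2
    simp only [mul_inv_cancel_left₀ (card_ne_zero' (G := P)), mul_one] at h5
    exact h5
  rw [Finset.sum_comm, ← h4]
  refine Finset.sum_congr rfl fun t _ => ?_
  rw [Pi.one_apply, map_one, mul_one]
  rfl

theorem sum_eq_inner {L : Type*} [Group L] [Fintype L] (α β : L → ℂ) :
    ∑ l, α l * conj (β l) = (Nat.card L : ℂ) * classInner α β := by
  rw [classInner_apply, mul_inv_cancel_left₀ card_ne_zero']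

/-- the inner product over a group mapping onto a product -/
theorem sum_prod_inner {L : Type*} [Group L] [Fintype L] {A B : Type*} [Group A] [Group B] [Fintype A] [Fintype B]
    (f : L →* A) (g : L →* B) (hs : ∀ a b, ∃ l, f l = a ∧ g l = b) {c : A → ℂ} (hc : IsIrrCharacter A c)
    (χ₁ χ₂ : B → ℂ) :
    ∑ l : L, (c (f l) * χ₁ (g l)) * conj (c (f l) * χ₂ (g l)) = (Nat.card L : ℂ) * classInner χ₁ χ₂ := by
  classical
  have hsurj : Function.Surjective (f.prod g) := by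
    rintro ⟨a, b⟩
    obtain ⟨l, h1, h2⟩ := hs a b
    exact ⟨l, Prod.ext h1 h2⟩
  have h1 := sum_comp_hom (f.prod g) hsurj (fun p => (c p.1 * χ₁ p.2) * conj (c p.1 * χ₂ p.2))
  have h2 : ∑ u : A × B, (c u.1 * χ₁ u.2) * conj (c u.1 * χ₂ u.2) =
      (∑ a, c a * conj (c a)) * ∑ b, χ₁ b * conj (χ₂ b) := by
    rw [Fintype.sum_prod_type, Finset.sum_mul_sum]
    refine Finset.sum_congr rfl fun a _ => Finset.sum_congr rfl fun b _ => ?_
    rw [map_mul]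
    ring
  have h3 : (∑ a, c a * conj (c a)) = (Nat.card A : ℂ) := by
    rw [sum_eq_inner, Core.classInner_irr_self hc, mul_one]
  have h4 : (Nat.card (f.prod g).ker : ℂ) * ((Nat.card A : ℂ) * Nat.card B) = Nat.card L := by
    rw [← Nat.cast_mul, ← Nat.cast_mul, ← Nat.card_prod,
      ← Nat.card_congr (QuotientGroup.quotientKerEquivOfSurjective (f.prod g) hsurj).toEquiv, mul_comm,
      ← Subgroup.card_eq_card_quotient_mul_card_subgroup]
  have h5 : ∑ l : L, (c (f l) * χ₁ (g l)) * conj (c (f l) * χ₂ (g l)) =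
      (Nat.card (f.prod g).ker : ℂ) * ∑ u : A × B, (c u.1 * χ₁ u.2) * conj (c u.1 * χ₂ u.2) := h1
  rw [h5, h2, h3, sum_eq_inner, ← h4]
  ring

/-- positivity -/
theorem inner_zero_of_add {D : Type*} [Group D] [Fintype D] {A₁ B₁ A₂ B₂ : D → ℂ} (h1 : IsCharacter D A₁)
    (h2 : IsCharacter D B₁) (h3 : IsCharacter D A₂) (h4 : IsCharacter D B₂)
    (h : classInner (A₁ + B₁) (A₂ + B₂) = 0) : classInner A₁ A₂ = 0 := by
  rw [Core.classInner_add_left, Core.classInner_add_right, Core.classInner_add_right] at h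
  obtain ⟨a, ea⟩ := Core.classInner_isNat h1 h3
  obtain ⟨b, eb⟩ := Core.classInner_isNat h1 h4
  obtain ⟨c, ec⟩ := Core.classInner_isNat h2 h3
  obtain ⟨d, ed⟩ := Core.classInner_isNat h2 h4
  rw [ea, eb, ec, ed] at h
  have h5 : a + b + (c + d) = 0 := by exact_mod_cast h
  have h6 : a = 0 := by omega
  rw [ea, h6, Nat.cast_zero]

end General

section Pair

variable {K : Type u} [Field K] {V : Type v} [AddCommGroup V] [Module K V] {X : Type w} [AddCommGroup X] [Module K X]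
variable {F : CForm K V} {F' : CForm K X} {j : X →ₗ[K] V} {W₀ : Submodule K V} {k : ℕ}

/-- the inner product as a sum over the pairs -/
theorem inner_hc [FiniteDimensional K V] [Fintype F.iso] [Fintype (F.Om k)] {c : GL (Fin k) K → ℂ}
    (hcf : IsClassFunction _ c) {ψ₁ ψ₂ : F.iso → Submodule K V → ℂ}
    (hψ₁ : ∀ x g W, ψ₁ (x * g * x⁻¹) (W.map (F.iso.subtype x : V →ₗ[K] V)) = ψ₁ g W)
    (hψ₂ : ∀ x g W, ψ₂ (x * g * x⁻¹) (W.map (F.iso.subtype x : V →ₗ[K] V)) = ψ₂ g W)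
    (hW₀ : W₀ ∈ F.Om k) [Fintype (stabW F.iso.subtype W₀)] :
    (Nat.card (stabW F.iso.subtype W₀) : ℂ) * classInner (F.hc c ψ₁) (F.hc c ψ₂) =
      ∑ W' : F.Om k, ∑ t : stabW F.iso.subtype W₀, (flagTerm F.iso.subtype c t W₀ * ψ₁ t W₀) *
        conj (flagTerm F.iso.subtype c t W'.1 * ψ₂ t W'.1) := by
  classical
  let _ := subAct F.iso.subtype (F.Om k) F.Om_map
  have : IsPretransitive F.iso (F.Om k) := by
    refine ⟨fun W W' => ?_⟩
    obtain ⟨g, hg⟩ := F.trans_Om hW₀ W.2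
    obtain ⟨g', hg'⟩ := F.trans_Om hW₀ W'.2
    refine ⟨g' * g⁻¹, ?_⟩
    have e1 : g • (⟨W₀, hW₀⟩ : F.Om k) = W := Subtype.ext hg
    have e2 : g' • (⟨W₀, hW₀⟩ : F.Om k) = W' := Subtype.ext hg'
    rw [← e1, mul_smul, inv_smul_smul, e2]
  have hinv : ∀ {ψ : F.iso → Submodule K V → ℂ},
      (∀ x g W, ψ (x * g * x⁻¹) (W.map (F.iso.subtype x : V →ₗ[K] V)) = ψ g W) →
      ∀ (x g : F.iso) (W : F.Om k), (fun g (W : F.Om k) => flagTerm F.iso.subtype c g W.1 * ψ g W.1) (x * g * x⁻¹)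
        (x • W) = (fun g (W : F.Om k) => flagTerm F.iso.subtype c g W.1 * ψ g W.1) g W := by
    intro ψ hψ x g W
    exact congrArg₂ (· * ·) (flagTerm_conj F.iso.subtype hcf x g W.1) (hψ x g W.1)
  rw [hc_eq_orbSum F, hc_eq_orbSum F]
  rw [inner_orbSum (fun g (W : F.Om k) => flagTerm F.iso.subtype c g W.1 * ψ₁ g W.1)
    (fun g (W : F.Om k) => flagTerm F.iso.subtype c g W.1 * ψ₂ g W.1) (hinv hψ₁) (hinv hψ₂) ⟨W₀, hW₀⟩
    (stabW F.iso.subtype W₀) (fun g => ⟨fun h => Subtype.ext h, fun h => congrArg Subtype.val h⟩)]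
  refine Finset.sum_congr rfl fun W' _ => Finset.sum_congr rfl fun t _ => ?_
  congr 2
  split_ifs with h
  · rfl
  · unfold flagTerm
    rw [dif_neg, zero_mul]
    intro h'
    exact h (Subtype.ext h')

theorem opp_map {g : F.iso} (hg : g ∈ stabW F.iso.subtype W₀) {W' : Submodule K V} (h0 : W₀ ⊓ F.perp W' = ⊥) :
    W₀ ⊓ F.perp (W'.map (F.iso.subtype g : V →ₗ[K] V)) = ⊥ := by
  rw [Submodule.eq_bot_iff]
  rintro x ⟨hx, hx'⟩
  have hg' : W₀.map (F.iso.subtype g : V →ₗ[K] V) = W₀ := hg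
  rw [← hg'] at hx
  obtain ⟨y, hy, rfl⟩ := hx
  have h1 : y ∈ W₀ ⊓ F.perp W' := by
    refine ⟨hy, fun w hw => ?_⟩
    exact (F.iso_B g y w).symm.trans (hx' _ ⟨w, hw, rfl⟩)
  rw [h0] at h1
  rw [(Submodule.mem_bot K).1 h1, map_zero]

/-- the two actions on the middle space of an opposite pair agree -/
theorem rho_conj (h : Cmp F F' j W₀) [FiniteDimensional K V] [FiniteDimensional K X]
    {ρ : stabW F.iso.subtype W₀ →* F'.iso}
    (hρ1 : ∀ (g : stabW F.iso.subtype W₀) x, ((g : F.iso) : V ≃ₗ[K] V) (j x) - j ((ρ g : X ≃ₗ[K] X) x) ∈ W₀)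
    (hW₀ : W₀ ∈ F.Om k) {W' : Submodule K V} (hW' : W' ∈ F.Om k) (h0 : W₀ ⊓ F.perp W' = ⊥) :
    ∃ x : F.iso, W₀.map (F.iso.subtype x : V →ₗ[K] V) = W' ∧
      ∀ l (hl : l ∈ stabW F.iso.subtype W₀), l ∈ stabW F.iso.subtype W' →
        ∃ hg : x⁻¹ * l * x ∈ stabW F.iso.subtype W₀, ρ ⟨x⁻¹ * l * x, hg⟩ = ρ ⟨l, hl⟩ := by
  classical
  obtain ⟨x, hx, hx'⟩ := exists_swap (F := F) hW₀.1 hW'.1 (by rw [hW₀.2, hW'.2]) h0
  have h0' := opp_symm (F := F) hW₀.2 hW'.2 h0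
  refine ⟨x, hx, fun l hl hl' => ?_⟩
  have hl0 : W₀.map (F.iso.subtype l : V →ₗ[K] V) = W₀ := hl
  have hl1 : W'.map (F.iso.subtype l : V →ₗ[K] V) = W' := hl'
  have hxi : W'.map (F.iso.subtype x⁻¹ : V →ₗ[K] V) = W₀ := by
    rw [← hx, ← map_mul_apply, inv_mul_cancel, map_one]
    exact Submodule.map_id _
  have hg : x⁻¹ * l * x ∈ stabW F.iso.subtype W₀ := by
    change W₀.map (F.iso.subtype (x⁻¹ * l * x) : V →ₗ[K] V) = W₀
    rw [map_mul_apply, map_mul_apply, hx, hl1, hxi]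
  refine ⟨hg, ?_⟩
  obtain ⟨P, hP⟩ := F.exists_proj (W₀ := W₀) (W' := W')
    (fun w hw hw' => by
      have : w ∈ W₀ ⊓ F.perp W' := ⟨hw, hw'⟩
      rw [h0] at this
      exact (Submodule.mem_bot K).1 this)
    (fun w hw hw' => by
      have : w ∈ W' ⊓ F.perp W₀ := ⟨hw, fun w' hw'' => F.B_eq_zero (hw' w' hw'')⟩
      rw [h0'] at this
      exact (Submodule.mem_bot K).1 this)
  have hst : ∀ {g : F.iso} {W : Submodule K V}, W.map (F.iso.subtype g : V →ₗ[K] V) = W → ∀ w ∈ W,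
      (g : V ≃ₗ[K] V) w ∈ W := by
    intro g W hgW w hw
    have : (F.iso.subtype g : V →ₗ[K] V) w ∈ W.map (F.iso.subtype g : V →ₗ[K] V) := ⟨w, hw, rfl⟩
    rwa [hgW] at this
  have hpp : ∀ {g : F.iso} {W : Submodule K V}, W.map (F.iso.subtype g : V →ₗ[K] V) = W → ∀ v,
      (∀ w ∈ W, F.B v w = 0) → ∀ w ∈ W, F.B ((g : V ≃ₗ[K] V) v) w = 0 := by
    intro g W hgW v hv w hw
    rw [← hgW] at hw
    obtain ⟨w', hw', rfl⟩ := hw
    exact (F.iso_B g v w').trans (hv w' hw')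
  apply Subtype.ext
  ext x'
  -- decomposition
  let y : V := j x' - P (j x')
  have hy0 : ∀ w ∈ W₀, F.B y w = 0 := by
    intro w hw
    change F.B (j x' - P (j x')) w = 0
    rw [F.B_sub_left, h.j1 x' w hw, hW₀.1.2 _ (P (j x')).2 w hw, sub_zero]
  have hy1 : ∀ w ∈ W', F.B y w = 0 := by
    intro w hw
    change F.B (j x' - P (j x')) w = 0
    rw [F.B_sub_left, hP _ w hw, sub_self]
  have hxy : (x : V ≃ₗ[K] V) y = y := hx' y hy0 hy1
  have hly : (x : V ≃ₗ[K] V) ((l : V ≃ₗ[K] V) y) = (l : V ≃ₗ[K] V) y :=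
    hx' _ (hpp hl0 y hy0) (hpp hl1 y hy1)
  have e1 : ((x⁻¹ * l * x : F.iso) : V ≃ₗ[K] V) y = (l : V ≃ₗ[K] V) y := by
    change ((x⁻¹ : F.iso) : V ≃ₗ[K] V) ((l : V ≃ₗ[K] V) ((x : V ≃ₗ[K] V) y)) = _
    rw [hxy]
    conv_lhs => rw [← hly]
    exact (x : V ≃ₗ[K] V).symm_apply_apply _
  have e2 : j x' = (P (j x') : V) + y := by
    change j x' = (P (j x') : V) + (j x' - P (j x'))
    abel
  have e3 : ((x⁻¹ * l * x : F.iso) : V ≃ₗ[K] V) (j x') - (l : V ≃ₗ[K] V) (j x') ∈ W₀ := by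
    rw [e2, map_add, map_add, e1, add_sub_add_right_eq_sub]
    exact W₀.sub_mem (hst hg _ (P (j x')).2) (hst hl0 _ (P (j x')).2)
  have e4 : j ((ρ ⟨x⁻¹ * l * x, hg⟩ : X ≃ₗ[K] X) x' - (ρ ⟨l, hl⟩ : X ≃ₗ[K] X) x') ∈ W₀ := by
    rw [map_sub]
    have h1 := hρ1 ⟨x⁻¹ * l * x, hg⟩ x'
    have h2 := hρ1 ⟨l, hl⟩ x'
    have h3 := W₀.add_mem (W₀.add_mem (W₀.neg_mem h1) e3) h2
    have e5 : -(((x⁻¹ * l * x : F.iso) : V ≃ₗ[K] V) (j x') - j ((ρ ⟨x⁻¹ * l * x, hg⟩ : X ≃ₗ[K] X) x')) +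
        (((x⁻¹ * l * x : F.iso) : V ≃ₗ[K] V) (j x') - (l : V ≃ₗ[K] V) (j x')) +
        ((l : V ≃ₗ[K] V) (j x') - j ((ρ ⟨l, hl⟩ : X ≃ₗ[K] X) x')) =
        j ((ρ ⟨x⁻¹ * l * x, hg⟩ : X ≃ₗ[K] X) x') - j ((ρ ⟨l, hl⟩ : X ≃ₗ[K] X) x') := by abel
    rw [← e5]
    exact h3
  exact sub_eq_zero.1 (Cmp_inj h e4)

open Classical in
/-- **the opposite pairs** -/
theorem sum_opp (h : Cmp F F' j W₀) [FiniteDimensional K V] [FiniteDimensional K X] [Finite V] [Finite K]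
    {c : GL (Fin k) K → ℂ} (hc : IsIrrCharacter _ c) (hdual : c ∘ F.iota k = c)
    {ρ : stabW F.iso.subtype W₀ →* F'.iso}
    (hρ1 : ∀ (g : stabW F.iso.subtype W₀) x, ((g : F.iso) : V ≃ₗ[K] V) (j x) - j ((ρ g : X ≃ₗ[K] X) x) ∈ W₀)
    (hρ2 : ∀ g : stabW F.iso.subtype W₀, (g : F.iso) ∈ F.TT W₀ → ρ g = 1)
    (hρ3 : ∀ (a : W₀ ≃ₗ[K] W₀) (b : F'.iso), ∃ g : stabW F.iso.subtype W₀, ρ g = b ∧
        ∀ w : W₀, ((g : F.iso) : V ≃ₗ[K] V) w = a w)
    [Fintype F'.iso] {χ₁ χ₂ : F'.iso → ℂ} (hχ₁ : IsClassFunction _ χ₁) (hχ₂ : IsClassFunction _ χ₂)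
    (hW₀ : W₀ ∈ F.Om k) {W' : Submodule K V} (hW' : W' ∈ F.Om k) (h0 : W₀ ⊓ F.perp W' = ⊥)
    [Fintype (stabW F.iso.subtype W₀)] :
    ∑ t : stabW F.iso.subtype W₀, (flagTerm F.iso.subtype c t W₀ * psf F W₀ (χ₁ ∘ ρ) t W₀) *
        conj (flagTerm F.iso.subtype c t W' * psf F W₀ (χ₂ ∘ ρ) t W') =
      (∑ t : stabW F.iso.subtype W₀,
        (if W'.map (F.iso.subtype (t : F.iso) : V →ₗ[K] V) = W' then (1 : ℂ) else 0)) * classInner χ₁ χ₂ := by
  have hcf := Core.isIrr_isClassFunction hc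
  let L : Subgroup F.iso := stabW F.iso.subtype W₀ ⊓ stabW F.iso.subtype W'
  have hfinV : Finite (V ≃ₗ[K] V) := Finite.of_injective (fun e : V ≃ₗ[K] V => (e : V → V)) DFunLike.coe_injective
  let _ : Fintype ↥(stabW F.iso.subtype W₀ ⊓ stabW F.iso.subtype W') := Fintype.ofFinite _
  let _ : Fintype (GL (Fin k) K) := Fintype.ofFinite _
  have hcl1 : IsClassFunction _ (χ₁ ∘ ρ) := fun g x => by
    have := hχ₁ (ρ g) (ρ x)
    rw [Function.comp_apply, Function.comp_apply, map_mul, map_mul, map_inv]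
    exact this
  have hcl2 : IsClassFunction _ (χ₂ ∘ ρ) := fun g x => by
    have := hχ₂ (ρ g) (ρ x)
    rw [Function.comp_apply, Function.comp_apply, map_mul, map_mul, map_inv]
    exact this
  rw [sum_inf_eq (stabW F.iso.subtype W₀) (stabW F.iso.subtype W')
      (fun t => (flagTerm F.iso.subtype c t W₀ * psf F W₀ (χ₁ ∘ ρ) t W₀) *
        conj (flagTerm F.iso.subtype c t W' * psf F W₀ (χ₂ ∘ ρ) t W')) (fun g _ hg => by
        have : flagTerm F.iso.subtype c g W' = 0 := dif_neg hg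
        rw [this, zero_mul, map_zero, mul_zero]),
    sum_inf_eq (stabW F.iso.subtype W₀) (stabW F.iso.subtype W')
      (fun t => (if W'.map (F.iso.subtype (t : F.iso) : V →ₗ[K] V) = W' then (1 : ℂ) else 0))
      (fun g _ hg => if_neg hg)]
  have hcard : ∑ t : ↥(stabW F.iso.subtype W₀ ⊓ stabW F.iso.subtype W'),
      (if W'.map (F.iso.subtype (t : F.iso) : V →ₗ[K] V) = W' then (1 : ℂ) else 0) =
      Nat.card ↥(stabW F.iso.subtype W₀ ⊓ stabW F.iso.subtype W') := by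
    rw [Finset.sum_congr rfl fun t _ => if_pos t.2.2, Finset.sum_const, Finset.card_univ, ← Nat.card_eq_fintype_card,
      nsmul_eq_mul, mul_one]
  rw [hcard]
  obtain ⟨b, b', hb⟩ := exists_dual_basis (F := F) hW₀.2 hW'.2 h0
  obtain ⟨x, hx, hρx⟩ := rho_conj h hρ1 hW₀ hW' h0
  let f : ↥(stabW F.iso.subtype W₀ ⊓ stabW F.iso.subtype W') →* GL (Fin k) K :=
    (glE b).toMonoidHom.comp ((resHom F.iso.subtype W₀).comp (Subgroup.inclusion inf_le_left))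
  let g : ↥(stabW F.iso.subtype W₀ ⊓ stabW F.iso.subtype W') →* F'.iso := ρ.comp (Subgroup.inclusion inf_le_left)
  have hs : ∀ A B, ∃ l, f l = A ∧ g l = B := by
    intro A B
    obtain ⟨a, rfl⟩ := (glE b).surjective A
    obtain ⟨g₀, hg₀, hg₀'⟩ := hρ3 a B
    obtain ⟨u, hu1, hu2, hu3⟩ := unip_trans (F := F) hW₀ (F.Om_map (g₀ : F.iso) W' hW') hW' (opp_map g₀.2 h0) h0
    have huT : u ∈ F.TT W₀ := F.mem_TT_of hW₀.1 hu3
    have h1 : u * (g₀ : F.iso) ∈ stabW F.iso.subtype W₀ := Subgroup.mul_mem _ huT.1 g₀.2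
    have h2 : u * (g₀ : F.iso) ∈ stabW F.iso.subtype W' := by
      change W'.map (F.iso.subtype (u * (g₀ : F.iso)) : V →ₗ[K] V) = W'
      rw [map_mul_apply, hu2]
    refine ⟨⟨u * (g₀ : F.iso), h1, h2⟩, ?_, ?_⟩
    · change glE b (res (F.iso.subtype (u * (g₀ : F.iso))) W₀ _) = glE b a
      congr 1
      ext w
      change (u : V ≃ₗ[K] V) (((g₀ : F.iso) : V ≃ₗ[K] V) w) = _
      rw [hg₀', hu1 _ (a w).2]
    · change ρ ⟨u * (g₀ : F.iso), h1⟩ = B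
      have : (⟨u * (g₀ : F.iso), h1⟩ : stabW F.iso.subtype W₀) = ⟨u, huT.1⟩ * g₀ := rfl
      rw [this, map_mul, hρ2 _ huT, one_mul, hg₀]
  rw [← sum_prod_inner f g hs hc χ₁ χ₂]
  refine Finset.sum_congr rfl fun l _ => ?_
  obtain ⟨hg, hρl⟩ := hρx l l.2.1 l.2.2
  have e1 : flagTerm F.iso.subtype c (l : F.iso) W₀ = c (f l) := by
    rw [flagTerm_of F.iso.subtype c l.2.1, cl_eq hcf b]
    rfl
  have e2 : flagTerm F.iso.subtype c (l : F.iso) W' = c (f l) := by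
    rw [flagTerm_of F.iso.subtype c l.2.2, cl_eq hcf b', glE_opp hb l.2.1 l.2.2]
    exact congrFun hdual _
  have e3 : psf F W₀ (χ₁ ∘ ρ) l W₀ = χ₁ (g l) := psf_self hcl1 ⟨(l : F.iso), l.2.1⟩
  have e4 : psf F W₀ (χ₂ ∘ ρ) l W' = χ₂ (g l) := by
    rw [psf_eq hcl2 hx hg]
    change χ₂ (ρ _) = χ₂ (ρ _)
    rw [hρl]
    rfl
  rw [e1, e2, e3, e4]

/-- the orthogonality on the common stabiliser, from a subgroup -/
theorem sum_zero_of_sub [Finite V] {A₁ A₂ : F.iso → ℂ} (D : Subgroup F.iso) [Fintype D]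
    (h1 : IsCharacter D (fun l => A₁ l)) (h2 : IsCharacter D (fun l => A₂ l)) (L : Subgroup F.iso) (hL : L ≤ D)
    (h : ∀ [Fintype L], ∑ l : L, A₁ l * conj (A₂ l) = 0) : ∑ l : D, A₁ l * conj (A₂ l) = 0 := by
  classical
  have hfinV : Finite (V ≃ₗ[K] V) := Finite.of_injective (fun e : V ≃ₗ[K] V => (e : V → V)) DFunLike.coe_injective
  let _ : Fintype L := Fintype.ofFinite _
  have h3 := classInner_eq_zero_of_comp (Subgroup.inclusion hL) h1 h2 (by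
    rw [Core.classInner_def]
    rw [show (∑ l : L, ((fun l : D => A₁ l) ∘ (Subgroup.inclusion hL)) l *
        conj (((fun l : D => A₂ l) ∘ (Subgroup.inclusion hL)) l)) = 0 from h, mul_zero])
  rw [sum_eq_inner (fun l : D => A₁ l) (fun l : D => A₂ l), h3, mul_zero]

/-- **the other pairs** -/
theorem sum_rest (h : Cmp F F' j W₀) [FiniteDimensional K V] [FiniteDimensional K X] [Finite V] [Finite K]
    (hk : 2 ≤ k) {c : GL (Fin k) K → ℂ} (hc : IsCharacter _ c) (hcusp : IsCusp c)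
    {ρ : stabW F.iso.subtype W₀ →* F'.iso}
    (hρ1 : ∀ (g : stabW F.iso.subtype W₀) x, ((g : F.iso) : V ≃ₗ[K] V) (j x) - j ((ρ g : X ≃ₗ[K] X) x) ∈ W₀)
    (hρ2 : ∀ g : stabW F.iso.subtype W₀, (g : F.iso) ∈ F.TT W₀ → ρ g = 1)
    {χ₁ χ₂ θ₁ θ₂ : F'.iso → ℂ} (hχ₁ : IsCharacter _ χ₁) (hχ₂ : IsCharacter _ χ₂)
    (hθ₁ : IsCharacter _ θ₁) (hθ₂ : IsCharacter _ θ₂)
    (h₁ : ∀ g : F'.iso, χ₁ g + θ₁ g =
      (Nat.card {U : Submodule K X // Mx F' U ∧ U.map (F'.iso.subtype g : X →ₗ[K] X) = U} : ℂ))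
    (h₂ : ∀ g : F'.iso, χ₂ g + θ₂ g =
      (Nat.card {U : Submodule K X // Mx F' U ∧ U.map (F'.iso.subtype g : X →ₗ[K] X) = U} : ℂ))
    (hW₀ : W₀ ∈ F.Om k) {W' : Submodule K V} (hW' : W' ∈ F.Om k) (h0 : W₀ ⊓ F.perp W' ≠ ⊥) (hne : W' ≠ W₀)
    [Fintype (stabW F.iso.subtype W₀)] :
    ∑ t : stabW F.iso.subtype W₀, (flagTerm F.iso.subtype c t W₀ * psf F W₀ (χ₁ ∘ ρ) t W₀) *
        conj (flagTerm F.iso.subtype c t W' * psf F W₀ (χ₂ ∘ ρ) t W') = 0 := by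
  classical
  have hcf := Core.isCharacter_isClassFunction hc
  have hfinV : Finite (V ≃ₗ[K] V) := Finite.of_injective (fun e : V ≃ₗ[K] V => (e : V → V)) DFunLike.coe_injective
  let _ : Fintype ↥(stabW F.iso.subtype W₀ ⊓ stabW F.iso.subtype W') := Fintype.ofFinite _
  have hcl1 : IsClassFunction _ (χ₁ ∘ ρ) := Core.isCharacter_isClassFunction (Core.isCharacter_comp ρ hχ₁)
  have hcl2 : IsClassFunction _ (χ₂ ∘ ρ) := Core.isCharacter_isClassFunction (Core.isCharacter_comp ρ hχ₂)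
  rw [sum_inf_eq (stabW F.iso.subtype W₀) (stabW F.iso.subtype W')
      (fun t => (flagTerm F.iso.subtype c t W₀ * psf F W₀ (χ₁ ∘ ρ) t W₀) *
        conj (flagTerm F.iso.subtype c t W' * psf F W₀ (χ₂ ∘ ρ) t W')) (fun g _ hg => by
        have : flagTerm F.iso.subtype c g W' = 0 := dif_neg hg
        rw [this, zero_mul, map_zero, mul_zero])]
  obtain ⟨x, hx⟩ := F.trans_Om hW₀ hW'
  have hxi : W'.map (F.iso.subtype x⁻¹ : V →ₗ[K] V) = W₀ := by
    rw [← hx, ← map_mul_apply, inv_mul_cancel, map_one]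
    exact Submodule.map_id _
  have hconj : ∀ l ∈ stabW F.iso.subtype W', x⁻¹ * l * x ∈ stabW F.iso.subtype W₀ := by
    intro l hl
    have hl1 : W'.map (F.iso.subtype l : V →ₗ[K] V) = W' := hl
    change W₀.map (F.iso.subtype (x⁻¹ * l * x) : V →ₗ[K] V) = W₀
    rw [map_mul_apply, map_mul_apply, hx, hl1, hxi]
  -- the homomorphisms to the small group
  let p₁ : ↥(stabW F.iso.subtype W₀ ⊓ stabW F.iso.subtype W') →* F'.iso := ρ.comp (Subgroup.inclusion inf_le_left)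
  let p₂ : ↥(stabW F.iso.subtype W₀ ⊓ stabW F.iso.subtype W') →* F'.iso := ρ.comp
    { toFun := fun l => ⟨x⁻¹ * (l : F.iso) * x, hconj l l.2.2⟩
      map_one' := by
        apply Subtype.ext
        change x⁻¹ * 1 * x = 1
        group
      map_mul' := fun l m => by
        apply Subtype.ext
        change x⁻¹ * ((l : F.iso) * m) * x = (x⁻¹ * l * x) * (x⁻¹ * m * x)
        group }
  have e1 : ∀ l : ↥(stabW F.iso.subtype W₀ ⊓ stabW F.iso.subtype W'), psf F W₀ (χ₁ ∘ ρ) l W₀ = χ₁ (p₁ l) :=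
    fun l => psf_self hcl1 ⟨(l : F.iso), l.2.1⟩
  have e2 : ∀ l : ↥(stabW F.iso.subtype W₀ ⊓ stabW F.iso.subtype W'), psf F W₀ (χ₂ ∘ ρ) l W' = χ₂ (p₂ l) :=
    fun l => psf_eq hcl2 hx (hconj l l.2.2)
  have c1 : IsCharacter ↥(stabW F.iso.subtype W₀ ⊓ stabW F.iso.subtype W') (fun l => flagTerm F.iso.subtype c l W₀) :=
    isCharacter_cl hc hW₀.2 _ inf_le_left
  have c2 : IsCharacter ↥(stabW F.iso.subtype W₀ ⊓ stabW F.iso.subtype W') (fun l => flagTerm F.iso.subtype c l W') :=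
    isCharacter_cl hc hW'.2 _ inf_le_right
  have k1 := Core.isCharacter_mul c1 (Core.isCharacter_comp p₁ hχ₁)
  have k2 := Core.isCharacter_mul c2 (Core.isCharacter_comp p₂ hχ₂)
  have k1' : IsCharacter ↥(stabW F.iso.subtype W₀ ⊓ stabW F.iso.subtype W')
      (fun l => flagTerm F.iso.subtype c l W₀ * psf F W₀ (χ₁ ∘ ρ) l W₀) := by
    have : (fun l : ↥(stabW F.iso.subtype W₀ ⊓ stabW F.iso.subtype W') =>
        flagTerm F.iso.subtype c l W₀ * psf F W₀ (χ₁ ∘ ρ) l W₀) = _ * _ := funext fun l => by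
      rw [e1]
      exact (rfl : _ = ((fun l : ↥(stabW F.iso.subtype W₀ ⊓ stabW F.iso.subtype W') =>
        flagTerm F.iso.subtype c (l : F.iso) W₀) * (χ₁ ∘ p₁)) l)
    rw [this]
    exact k1
  have k2' : IsCharacter ↥(stabW F.iso.subtype W₀ ⊓ stabW F.iso.subtype W')
      (fun l => flagTerm F.iso.subtype c l W' * psf F W₀ (χ₂ ∘ ρ) l W') := by
    have : (fun l : ↥(stabW F.iso.subtype W₀ ⊓ stabW F.iso.subtype W') =>
        flagTerm F.iso.subtype c l W' * psf F W₀ (χ₂ ∘ ρ) l W') = _ * _ := funext fun l => by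
      rw [e2]
      exact (rfl : _ = ((fun l : ↥(stabW F.iso.subtype W₀ ⊓ stabW F.iso.subtype W') =>
        flagTerm F.iso.subtype c (l : F.iso) W') * (χ₂ ∘ p₂)) l)
    rw [this]
    exact k2
  -- the orthogonal disjoint case
  by_cases hperp : W₀ ≤ F.perp W' ∧ W₀ ⊓ W' = ⊥
  · have hm := sum_max hk hc hcusp hW₀ hW' hperp.1 hperp.2
    have d1 := Core.isCharacter_mul c1 (Core.isCharacter_comp p₁ hθ₁)
    have d2 := Core.isCharacter_mul c2 (Core.isCharacter_comp p₂ hθ₂)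
    have f1 : ∀ l : ↥(stabW F.iso.subtype W₀ ⊓ stabW F.iso.subtype W'),
        pm F l W₀ = χ₁ (p₁ l) + θ₁ (p₁ l) := by
      intro l
      rw [h₁]
      exact pm_eq_card h ⟨(l : F.iso), l.2.1⟩ (hρ1 _)
    have f2 : ∀ l : ↥(stabW F.iso.subtype W₀ ⊓ stabW F.iso.subtype W'),
        pm F l W' = χ₂ (p₂ l) + θ₂ (p₂ l) := by
      intro l
      rw [h₂]
      have e3 := pm_conj x (x⁻¹ * (l : F.iso) * x) W₀
      have e4 : x * (x⁻¹ * (l : F.iso) * x) * x⁻¹ = l := by group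
      rw [e4, hx] at e3
      rw [e3]
      exact pm_eq_card h ⟨x⁻¹ * (l : F.iso) * x, hconj l l.2.2⟩ (hρ1 _)
    have hm' : classInner
        (((fun l : ↥(stabW F.iso.subtype W₀ ⊓ stabW F.iso.subtype W') => flagTerm F.iso.subtype c (l : F.iso) W₀) *
          (χ₁ ∘ p₁)) + ((fun l : ↥(stabW F.iso.subtype W₀ ⊓ stabW F.iso.subtype W') =>
            flagTerm F.iso.subtype c (l : F.iso) W₀) * (θ₁ ∘ p₁)))
        (((fun l : ↥(stabW F.iso.subtype W₀ ⊓ stabW F.iso.subtype W') => flagTerm F.iso.subtype c (l : F.iso) W') *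
          (χ₂ ∘ p₂)) + ((fun l : ↥(stabW F.iso.subtype W₀ ⊓ stabW F.iso.subtype W') =>
            flagTerm F.iso.subtype c (l : F.iso) W') * (θ₂ ∘ p₂))) = 0 := by
      rw [classInner_apply]
      rw [← mul_zero ((Nat.card ↥(stabW F.iso.subtype W₀ ⊓ stabW F.iso.subtype W') : ℂ)⁻¹), ← hm]
      congr 1
      refine Finset.sum_congr rfl fun l _ => ?_
      rw [f1, f2, mul_add, mul_add]
      rfl
    have hz := inner_zero_of_add k1 d1 k2 d2 hm'
    have hz' := sum_eq_inner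
      ((fun l : ↥(stabW F.iso.subtype W₀ ⊓ stabW F.iso.subtype W') => flagTerm F.iso.subtype c (l : F.iso) W₀) *
          (χ₁ ∘ p₁))
      ((fun l : ↥(stabW F.iso.subtype W₀ ⊓ stabW F.iso.subtype W') => flagTerm F.iso.subtype c (l : F.iso) W') *
          (χ₂ ∘ p₂))
    rw [hz, mul_zero] at hz'
    rw [← hz']
    refine Finset.sum_congr rfl fun l _ => ?_
    rw [e1, e2]
    rfl
  -- the other cases
  let ψ : F.iso → Submodule K V → ℂ := fun g W =>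
    if W = W₀ then psf F W₀ (χ₁ ∘ ρ) g W else psf F W₀ (χ₂ ∘ ρ) g W
  have hψ0 : ∀ g, ψ g W₀ = psf F W₀ (χ₁ ∘ ρ) g W₀ := fun g => if_pos rfl
  have hψ1 : ∀ g, ψ g W' = psf F W₀ (χ₂ ∘ ρ) g W' := fun g => if_neg hne
  have hT : ∀ {χ : F'.iso → ℂ}, IsCharacter _ χ → ∀ W ∈ F.Om k, ∀ g ∈ F.TT W,
      psf F W₀ (χ ∘ ρ) g W = psf F W₀ (χ ∘ ρ) 1 W := by
    intro χ hχ W hWk g hg
    have hcl : IsClassFunction _ (χ ∘ ρ) := Core.isCharacter_isClassFunction (Core.isCharacter_comp ρ hχ)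
    obtain ⟨x, hx⟩ := F.trans_Om hW₀ hWk
    have h1 := TT_conj hx hg
    have h2 : x⁻¹ * 1 * x ∈ stabW F.iso.subtype W₀ := by
      rw [mul_one, inv_mul_cancel]; exact Subgroup.one_mem _
    rw [psf_eq hcl hx h1.1, psf_eq hcl hx h2]
    change χ (ρ _) = χ (ρ _)
    rw [hρ2 _ h1]
    have h3 : (⟨x⁻¹ * 1 * x, h2⟩ : stabW F.iso.subtype W₀) = 1 := by
      apply Subtype.ext
      change x⁻¹ * 1 * x = 1
      group
    rw [h3, map_one]
  have hψT : ∀ W ∈ F.Om k, ∀ g ∈ F.TT W, ψ g W = ψ 1 W := by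
    intro W hWk g hg
    by_cases hW : W = W₀
    · have a1 : ∀ g, ψ g W = psf F W₀ (χ₁ ∘ ρ) g W := fun g => if_pos hW
      rw [a1, a1]
      exact hT hχ₁ W hWk g hg
    · have a1 : ∀ g, ψ g W = psf F W₀ (χ₂ ∘ ρ) g W := fun g => if_neg hW
      rw [a1, a1]
      exact hT hχ₂ W hWk g hg
  have key : F.Van c ψ W₀ W' := by
    by_cases h1 : W₀ ⊓ F.perp W' = W₀
    · have h1' : W₀ ≤ F.perp W' := inf_eq_left.1 h1
      by_cases h2 : W₀ ⊓ W' = ⊥
      · exact absurd ⟨h1', h2⟩ hperp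
      · exact van_case2 hcf hcusp hψT hW₀ hW' h1' h2 hne
    · exact van_case1 hcf hcusp hψT hW₀ hW' h0 h1
  obtain ⟨L, hL1, hL2, hL3⟩ := key
  refine sum_zero_of_sub (F := F) (A₁ := fun l => flagTerm F.iso.subtype c l W₀ * psf F W₀ (χ₁ ∘ ρ) l W₀)
    (A₂ := fun l => flagTerm F.iso.subtype c l W' * psf F W₀ (χ₂ ∘ ρ) l W') _ k1' k2' L (le_inf hL1 hL2) ?_
  intro _
  rw [← hL3]
  refine Finset.sum_congr rfl fun l _ => ?_
  rw [hψ0, hψ1]

/-- **the inner products** -/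
theorem inner_hc_psf (h : Cmp F F' j W₀) [FiniteDimensional K V] [FiniteDimensional K X] [Finite V] [Finite K]
    (hk : 2 ≤ k) {c : GL (Fin k) K → ℂ} (hc : IsIrrCharacter _ c) (hcusp : IsCusp c) (hdual : c ∘ F.iota k = c)
    {ρ : stabW F.iso.subtype W₀ →* F'.iso}
    (hρ1 : ∀ (g : stabW F.iso.subtype W₀) x, ((g : F.iso) : V ≃ₗ[K] V) (j x) - j ((ρ g : X ≃ₗ[K] X) x) ∈ W₀)
    (hρ2 : ∀ g : stabW F.iso.subtype W₀, (g : F.iso) ∈ F.TT W₀ → ρ g = 1)
    (hρ3 : ∀ (a : W₀ ≃ₗ[K] W₀) (b : F'.iso), ∃ g : stabW F.iso.subtype W₀, ρ g = b ∧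
        ∀ w : W₀, ((g : F.iso) : V ≃ₗ[K] V) w = a w)
    [Fintype F.iso] [Fintype F'.iso] [Fintype (F.Om k)]
    {χ₁ χ₂ θ₁ θ₂ : F'.iso → ℂ} (hχ₁ : IsCharacter _ χ₁) (hχ₂ : IsCharacter _ χ₂)
    (hθ₁ : IsCharacter _ θ₁) (hθ₂ : IsCharacter _ θ₂)
    (h₁ : ∀ g : F'.iso, χ₁ g + θ₁ g =
      (Nat.card {U : Submodule K X // Mx F' U ∧ U.map (F'.iso.subtype g : X →ₗ[K] X) = U} : ℂ))
    (h₂ : ∀ g : F'.iso, χ₂ g + θ₂ g =
      (Nat.card {U : Submodule K X // Mx F' U ∧ U.map (F'.iso.subtype g : X →ₗ[K] X) = U} : ℂ))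
    (hW₀ : W₀ ∈ F.Om k) :
    classInner (F.hc c (psf F W₀ (χ₁ ∘ ρ))) (F.hc c (psf F W₀ (χ₂ ∘ ρ))) = 2 * classInner χ₁ χ₂ := by
  classical
  have hcc := Core.isIrr_isCharacter hc
  have hcf := Core.isIrr_isClassFunction hc
  have hcl1 : IsClassFunction _ (χ₁ ∘ ρ) := Core.isCharacter_isClassFunction (Core.isCharacter_comp ρ hχ₁)
  have hcl2 : IsClassFunction _ (χ₂ ∘ ρ) := Core.isCharacter_isClassFunction (Core.isCharacter_comp ρ hχ₂)
  let _ : Fintype (stabW F.iso.subtype W₀) := Fintype.ofFinite _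
  have h1 := inner_hc (F := F) (W₀ := W₀) hcf (psf_conj hcl1) (psf_conj hcl2) hW₀
  -- the group acts transitively on the opposites
  let O : Type _ := {W' : F.Om k // W₀ ⊓ F.perp W'.1 = ⊥}
  let _ : Fintype O := Fintype.ofFinite _
  let _ : MulAction (stabW F.iso.subtype W₀) O :=
    { smul := fun g W' => ⟨⟨W'.1.1.map (F.iso.subtype (g : F.iso) : V →ₗ[K] V), F.Om_map _ _ W'.1.2⟩,
        opp_map g.2 W'.2⟩
      one_smul := fun W' => Subtype.ext (Subtype.ext (Submodule.map_id _))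
      mul_smul := fun g g' W' => Subtype.ext (Subtype.ext (map_mul_apply F.iso.subtype (g : F.iso) g' W'.1.1)) }
  obtain ⟨W₁, hW₁, hopp⟩ := F.exists_opp hW₀
  have htr : IsPretransitive (stabW F.iso.subtype W₀) O := by
    refine ⟨fun W W' => ?_⟩
    obtain ⟨u, hu1, hu2, hu3⟩ := unip_trans (F := F) hW₀ W.1.2 W'.1.2 W.2 W'.2
    exact ⟨⟨u, (F.mem_TT_of hW₀.1 hu3).1⟩, Subtype.ext (Subtype.ext hu2)⟩
  have h2 := sum_fix (P := stabW F.iso.subtype W₀) (O := O) ⟨⟨W₁, hW₁⟩, hopp⟩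
  -- split the sum
  have h3 : ∀ W' : F.Om k, ∑ t : stabW F.iso.subtype W₀, (flagTerm F.iso.subtype c t W₀ * psf F W₀ (χ₁ ∘ ρ) t W₀) *
        conj (flagTerm F.iso.subtype c t W'.1 * psf F W₀ (χ₂ ∘ ρ) t W'.1) =
      (if W'.1 = W₀ then (Nat.card (stabW F.iso.subtype W₀) : ℂ) * classInner χ₁ χ₂ else 0) +
      (if W₀ ⊓ F.perp W'.1 = ⊥ then (∑ t : stabW F.iso.subtype W₀,
        (if W'.1.map (F.iso.subtype (t : F.iso) : V →ₗ[K] V) = W'.1 then (1 : ℂ) else 0)) * classInner χ₁ χ₂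
        else 0) := by
    rintro ⟨W', hW'⟩
    have hk0 : W₀ ≠ ⊥ := by
      intro e
      have := hW₀.2
      rw [e, finrank_bot] at this
      omega
    by_cases e0 : W' = W₀
    · have e1 : ¬ W₀ ⊓ F.perp W' = ⊥ := by
        rw [e0, inf_eq_left.2 hW₀.1.le_perp]
        exact hk0
      rw [if_pos e0, if_neg e1, add_zero]
      let b : Basis (Fin k) K W₀ := finBasisOfFinrankEq K W₀ hW₀.2
      let _ : Fintype (GL (Fin k) K) := Fintype.ofFinite _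
      let f : stabW F.iso.subtype W₀ →* GL (Fin k) K := (glE b).toMonoidHom.comp (resHom F.iso.subtype W₀)
      rw [← sum_prod_inner f ρ (fun A B => by
        obtain ⟨a, rfl⟩ := (glE b).surjective A
        obtain ⟨g, hg, hg'⟩ := hρ3 a B
        refine ⟨g, ?_, hg⟩
        change glE b (res (F.iso.subtype (g : F.iso)) W₀ _) = glE b a
        congr 1
        ext w
        exact hg' w) hc χ₁ χ₂]
      refine Finset.sum_congr rfl fun t _ => ?_
      change (flagTerm F.iso.subtype c t W₀ * psf F W₀ (χ₁ ∘ ρ) t W₀) *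
        conj (flagTerm F.iso.subtype c t W' * psf F W₀ (χ₂ ∘ ρ) t W') = _
      have e3 : flagTerm F.iso.subtype c (t : F.iso) W₀ = c (f t) := by
        rw [flagTerm_of F.iso.subtype c t.2, cl_eq hcf b]
        rfl
      rw [e0, psf_self hcl1, psf_self hcl2, e3]
      rfl
    · rw [if_neg e0, zero_add]
      by_cases e1 : W₀ ⊓ F.perp W' = ⊥
      · rw [if_pos e1]
        exact sum_opp h hc hdual hρ1 hρ2 hρ3 (Core.isCharacter_isClassFunction hχ₁)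
          (Core.isCharacter_isClassFunction hχ₂) hW₀ hW' e1
      · rw [if_neg e1]
        exact sum_rest h hk hcc hcusp hρ1 hρ2 hχ₁ hχ₂ hθ₁ hθ₂ h₁ h₂ hW₀ hW' e1 e0
  rw [Finset.sum_congr rfl fun W' _ => h3 W', Finset.sum_add_distrib] at h1
  have h4 : ∑ W' : F.Om k, (if W'.1 = W₀ then (Nat.card (stabW F.iso.subtype W₀) : ℂ) * classInner χ₁ χ₂ else 0) =
      (Nat.card (stabW F.iso.subtype W₀) : ℂ) * classInner χ₁ χ₂ := by
    rw [Finset.sum_eq_single (⟨W₀, hW₀⟩ : F.Om k)]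
    · exact if_pos rfl
    · intro W' _ hW'
      exact if_neg fun e => hW' (Subtype.ext e)
    · intro h; exact absurd (Finset.mem_univ _) h
  have h5 : ∑ W' : F.Om k, (if W₀ ⊓ F.perp W'.1 = ⊥ then (∑ t : stabW F.iso.subtype W₀,
        (if W'.1.map (F.iso.subtype (t : F.iso) : V →ₗ[K] V) = W'.1 then (1 : ℂ) else 0)) * classInner χ₁ χ₂
        else 0) = (Nat.card (stabW F.iso.subtype W₀) : ℂ) * classInner χ₁ χ₂ := by
    rw [← Finset.sum_filter, Finset.sum_subtype (p := fun W' : F.Om k => W₀ ⊓ F.perp W'.1 = ⊥) _ (fun W' => by simp)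
      (fun W' : F.Om k => (∑ t : stabW F.iso.subtype W₀,
        (if W'.1.map (F.iso.subtype (t : F.iso) : V →ₗ[K] V) = W'.1 then (1 : ℂ) else 0)) * classInner χ₁ χ₂),
      ← Finset.sum_mul]
    congr 1
    rw [← h2]
    refine Finset.sum_congr rfl fun W' _ => Finset.sum_congr rfl fun t _ => ?_
    by_cases e : W'.1.1.map (F.iso.subtype (t : F.iso) : V →ₗ[K] V) = W'.1.1
    · have e' : t • W' = W' := Subtype.ext (Subtype.ext e)
      rw [if_pos e, if_pos e']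
    · have e' : ¬ t • W' = W' := fun e' => e (congrArg (fun z : O => z.1.1) e')
      rw [if_neg e, if_neg e']
  rw [h4, h5] at h1
  have h6 : (Nat.card (stabW F.iso.subtype W₀) : ℂ) ≠ 0 := card_ne_zero'
  apply mul_left_cancel₀ h6
  rw [h1]
  ring

end Pair

end Cfsg.Agent.H428.HT
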