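import Cfsg.Agent.H428.HT.VanMax

/-!
# S4933, unitary primes: the opposite subspaces and the correspondence with the smaller space (helper428)

* `unip_trans` : the unipotent radical of the stabiliser of `W₀` is transitive on the opposites of `W₀`;
* `lift`, `card_lift`, **`pm_eq_card`** : the maximal totally singular subspaces above `W₀` are those of the smaller space.
-/

set_option autoImplicit false

open scoped ComplexConjugate
open Cfsg

namespace Cfsg.Agent.H428.HT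

open Cfsg.Agent.OddOrderCharacters.Clifford Cfsg.Agent.Characters MulAction Module Cfsg.Agent.H53.HC
open Cfsg.Agent.H477.HC Cfsg.Agent.H477.HC.CForm Cfsg.Agent.H749.Two

universe u v w

section Unip

variable {K : Type u} [Field K] {V : Type v} [AddCommGroup V] [Module K V] {F : CForm K V}

theorem sd {ι : Type*} [Fintype ι] [DecidableEq ι] {R : Type*} [Semiring R] (c : ι → R) (l : ι) :
    ∑ i, c i * (if i = l then 1 else 0) = c l := by
  rw [Finset.sum_eq_single l]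
  · rw [if_pos rfl, mul_one]
  · intro i _ hi
    rw [if_neg hi, mul_zero]
  · intro h; exact absurd (Finset.mem_univ _) h

theorem sde {ι : Type*} [Fintype ι] [DecidableEq ι] {R : Type*} [Semiring R] (c : ι → R) (ε : R) (l : ι) :
    ∑ i, c i * (if i = l then ε else 0) = c l * ε := by
  rw [Finset.sum_eq_single l]
  · rw [if_pos rfl]
  · intro i _ hi
    rw [if_neg hi, mul_zero]
  · intro h; exact absurd (Finset.mem_univ _) h

variable {k : ℕ}

/-- the coordinates with respect to a frame -/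
def cmb' (e : Fin k → V) (F : CForm K V) (a : Fin k → V) (c : K) : V →ₗ[K] V :=
  ∑ i, (c • F.lf (a i)).smulRight (e i)

theorem cmb'_apply (e : Fin k → V) (a : Fin k → V) (c : K) (v : V) :
    cmb' e F a c v = ∑ i, (c * F.B v (a i)) • e i := by
  unfold cmb'
  rw [LinearMap.sum_apply]
  rfl

theorem cmb'_mem (e : Fin k → V) (a : Fin k → V) (c : K) (v : V) : cmb' e F a c v ∈ Submodule.span K (Set.range e) := by
  rw [cmb'_apply]
  exact (Submodule.mem_span_range_iff_exists_fun K).2 ⟨_, rfl⟩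

/-- **the unipotent element carrying `f` to the opposite frame `y`** -/
theorem exists_unip' [FiniteDimensional K V] {e f y : Fin k → V} (hee : ∀ i l, F.B (e i) (e l) = 0)
    (hff : ∀ i l, F.B (f i) (f l) = 0)
    (hef : ∀ i l, F.B (e i) (f l) = if i = l then 1 else 0) (hQe : ∀ i, F.Q (e i) = 0) (hQf : ∀ i, F.Q (f i) = 0)
    (hey : ∀ i l, F.B (e i) (y l) = if i = l then 1 else 0) (hyy : ∀ i l, F.B (y i) (y l) = 0)
    (hQy : ∀ i, F.Q (y i) = 0) :
    ∃ u : F.iso, (∀ i, (u : V ≃ₗ[K] V) (e i) = e i) ∧ (∀ i, (u : V ≃ₗ[K] V) (f i) = y i) ∧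
      ∀ v, (∀ i, F.B v (e i) = 0) → (u : V ≃ₗ[K] V) v = v - ∑ i, F.B v (y i - f i) • e i := by
  have hfe : ∀ i l, F.B (f i) (e l) = if i = l then F.ε else 0 := by
    intro i l
    rw [F.B_symm, hef]
    by_cases hij : i = l
    · rw [if_pos hij, if_pos hij.symm, map_one, mul_one]
    · rw [if_neg hij, if_neg (Ne.symm hij), map_zero, mul_zero]
  have hε := F.ε_ne
  let P : V →ₗ[K] V := cmb' f F e F.ε⁻¹
  let Y : V →ₗ[K] V := cmb' y F e F.ε⁻¹
  let r : V →ₗ[K] V := LinearMap.id - P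
  let H : V →ₗ[K] V := (cmb' e F (fun i => y i - f i) 1).comp r
  have hP : ∀ v, P v = ∑ i, (F.ε⁻¹ * F.B v (e i)) • f i := cmb'_apply _ _ _
  have hY : ∀ v, Y v = ∑ i, (F.ε⁻¹ * F.B v (e i)) • y i := cmb'_apply _ _ _
  have hH : ∀ v, H v = ∑ i, (1 * F.B (r v) (y i - f i)) • e i := fun v => cmb'_apply _ _ _ _
  have hr : ∀ v, r v = v - P v := fun v => rfl
  have tsf := F.TS_span hff hQf
  have tse := F.TS_span hee hQe
  have tsy := F.TS_span hyy hQy
  have Pm : ∀ v, P v ∈ Submodule.span K (Set.range f) := fun v => cmb'_mem _ _ _ _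
  have Ym : ∀ v, Y v ∈ Submodule.span K (Set.range y) := fun v => cmb'_mem _ _ _ _
  have Hm : ∀ v, H v ∈ Submodule.span K (Set.range e) := fun v => cmb'_mem _ _ _ _
  have re : ∀ v l, F.B (r v) (e l) = 0 := by
    intro v l
    rw [hr, F.B_sub_left, hP, B_sum_left]
    simp only [hfe]
    rw [sde (fun i => F.ε⁻¹ * F.B v (e i)) F.ε l]
    field_simp
    ring
  have rH : ∀ u v, F.B (r u) (H v) = 0 := by
    intro u v
    rw [hH, B_sum_right]
    exact Finset.sum_eq_zero fun i _ => by rw [re, mul_zero]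
  have Hy : ∀ u m, F.B (H u) (y m) = F.B (r u) (y m - f m) := by
    intro u m
    rw [hH, B_sum_left]
    simp only [hey]
    rw [sd (fun i => 1 * F.B (r u) (y i - f i)) m, one_mul]
  have key : ∀ u v, F.B (r u - H u) (Y v) = F.B (r u) (P v) := by
    intro u v
    rw [hY, hP, B_sum_right, B_sum_right]
    refine Finset.sum_congr rfl fun i _ => ?_
    rw [F.B_sub_left, Hy, F.B_sub_right]
    ring
  have key' : ∀ u v, F.B (Y v) (r u - H u) = F.B (P v) (r u) := by
    intro u v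
    rw [F.B_symm, key, F.B_symm (P v)]
  let g : V →ₗ[K] V := r - H + Y
  have hg : ∀ v, g v = (r v - H v) + Y v := fun v => rfl
  have hv : ∀ v, v = r v + P v := fun v => by rw [hr]; abel
  have HH : ∀ u v, F.B (H u) (H v) = 0 := fun u v => tse.2 _ (Hm u) _ (Hm v)
  have YY : ∀ u v, F.B (Y u) (Y v) = 0 := fun u v => tsy.2 _ (Ym u) _ (Ym v)
  have PP : ∀ u v, F.B (P u) (P v) = 0 := fun u v => tsf.2 _ (Pm u) _ (Pm v)
  have Hr : ∀ u v, F.B (H u) (r v) = 0 := fun u v => F.B_eq_zero (rH v u)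
  obtain ⟨u, hu⟩ := F.exists_iso g (fun x z => by
    rw [hg, hg, F.B_add_left, F.B_add_right, F.B_add_right, key, key', YY, F.B_sub_left, F.B_sub_right, F.B_sub_right,
      HH, rH, Hr]
    conv_rhs => rw [hv x, hv z]
    rw [F.B_add_left, F.B_add_right, F.B_add_right, PP]
    ring) (fun v => by
    rw [hg, F.Q_add, key, tsy.1 _ (Ym v), sub_eq_add_neg, F.Q_add, F.B_neg_right, rH, neg_zero, F.T_zero]
    have : -H v = (-1 : K) • H v := by rw [neg_one_smul]
    rw [this, F.Q_smul, tse.1 _ (Hm v)]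
    conv_rhs => rw [hv v, F.Q_add, tsf.1 _ (Pm v)]
    ring)
  have P0 : ∀ v, (∀ i, F.B v (e i) = 0) → P v = 0 := by
    intro v hv
    rw [hP]
    exact Finset.sum_eq_zero fun i _ => by rw [hv, mul_zero, zero_smul]
  have Y0 : ∀ v, (∀ i, F.B v (e i) = 0) → Y v = 0 := by
    intro v hv
    rw [hY]
    exact Finset.sum_eq_zero fun i _ => by rw [hv, mul_zero, zero_smul]
  have u1 : ∀ v, (∀ i, F.B v (e i) = 0) → (u : V ≃ₗ[K] V) v = v - ∑ i, F.B v (y i - f i) • e i := by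
    intro v hv
    rw [hu, hg, Y0 v hv, hH, hr, P0 v hv, sub_zero, add_zero]
    congr 1
    exact Finset.sum_congr rfl fun i _ => by rw [one_mul]
  refine ⟨u, fun i => ?_, fun l => ?_, u1⟩
  · rw [u1 _ (hee i), Finset.sum_eq_zero, sub_zero]
    intro l _
    rw [F.B_sub_right, hey, hef, sub_self, zero_smul]
  · have rl : r (f l) = 0 := by
      rw [hr, hP, Finset.sum_eq_single l]
      · rw [hfe, if_pos rfl, inv_mul_cancel₀ hε, one_smul, sub_self]
      · intro i _ hi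
        rw [hfe, if_neg (Ne.symm hi), mul_zero, zero_smul]
      · intro h; exact absurd (Finset.mem_univ _) h
    rw [hu, hg, hH, rl, Finset.sum_eq_zero (fun i _ => by rw [F.B_zero_left, mul_zero, zero_smul]), sub_zero, zero_add,
      hY, Finset.sum_eq_single l]
    · rw [hfe, if_pos rfl, inv_mul_cancel₀ hε, one_smul]
    · intro i _ hi
      rw [hfe, if_neg (Ne.symm hi), mul_zero, zero_smul]
    · intro h; exact absurd (Finset.mem_univ _) h

/-- **the unipotent radical is transitive on the opposites** -/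
theorem unip_trans [FiniteDimensional K V] {W₀ W' W'' : Submodule K V} (hW₀ : W₀ ∈ F.Om k) (hW' : W' ∈ F.Om k)
    (hW'' : W'' ∈ F.Om k) (h' : W₀ ⊓ F.perp W' = ⊥) (h'' : W₀ ⊓ F.perp W'' = ⊥) :
    ∃ u : F.iso, (∀ w ∈ W₀, (u : V ≃ₗ[K] V) w = w) ∧ W'.map (F.iso.subtype u : V →ₗ[K] V) = W'' ∧
      ∀ v ∈ F.perp W₀, (u : V ≃ₗ[K] V) v - v ∈ W₀ := by
  classical
  obtain ⟨b, b', hb⟩ := exists_dual_basis (F := F) hW₀.2 hW'.2 h'
  have key : ∀ j, ∃ z ∈ W'', ∀ w : W₀, b.coord j w = F.B w z := by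
    intro j
    exact F.exists_pair W₀ W'' (b.coord j) (fun w hw => by
      have : (w : V) ∈ W₀ ⊓ F.perp W'' := ⟨w.2, hw⟩
      rw [h''] at this
      have e : w = 0 := Subtype.ext ((Submodule.mem_bot K).1 this)
      rw [e, map_zero])
  choose y hy hy' using key
  have hby : ∀ i j, F.B (b i) (y j) = if i = j then 1 else 0 := by
    intro i j
    rw [← hy', Basis.coord_apply, Basis.repr_self, Finsupp.single_apply]
  obtain ⟨u, hu1, hu2, hu3⟩ := exists_unip' (F := F) (e := fun i => (b i : V)) (f := fun i => (b' i : V)) (y := y)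
    (fun i l => hW₀.1.2 _ (b i).2 _ (b l).2) (fun i l => hW'.1.2 _ (b' i).2 _ (b' l).2) hb
    (fun i => hW₀.1.1 _ (b i).2) (fun i => hW'.1.1 _ (b' i).2) hby
    (fun i l => hW''.1.2 _ (hy i) _ (hy l)) (fun i => hW''.1.1 _ (hy i))
  refine ⟨u, fun w hw => ?_, ?_, fun v hv => ?_⟩
  · have e0 : (w : V) = ∑ i, b.repr ⟨w, hw⟩ i • (b i : V) := by
      conv_lhs => rw [show w = ((⟨w, hw⟩ : W₀) : V) from rfl, ← b.sum_repr ⟨w, hw⟩, Submodule.coe_sum]
      rfl
    conv_rhs => rw [e0]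
    conv_lhs => rw [e0, map_sum]
    refine Finset.sum_congr rfl fun i _ => ?_
    rw [map_smul, hu1]
  · apply Submodule.eq_of_le_of_finrank_eq
    · rintro _ ⟨w, hw, rfl⟩
      change (u : V ≃ₗ[K] V) w ∈ W''
      have e0 : (w : V) = ∑ i, b'.repr ⟨w, hw⟩ i • (b' i : V) := by
        conv_lhs => rw [show w = ((⟨w, hw⟩ : W') : V) from rfl, ← b'.sum_repr ⟨w, hw⟩, Submodule.coe_sum]
        rfl
      rw [e0, map_sum]
      refine Submodule.sum_mem _ fun i _ => ?_
      rw [map_smul, hu2]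
      exact W''.smul_mem _ (hy i)
    · rw [hW''.2, ← hW'.2]
      exact LinearEquiv.finrank_map_eq (u : V ≃ₗ[K] V) W'
  · rw [hu3 v fun i => hv _ (b i).2, sub_sub_cancel_left]
    exact W₀.neg_mem (Submodule.sum_mem _ fun i _ => W₀.smul_mem _ (b i).2)

end Unip

section Lift

variable {K : Type u} [Field K] {V : Type v} [AddCommGroup V] [Module K V] {X : Type w} [AddCommGroup X] [Module K X]
variable {F : CForm K V} {F' : CForm K X} {j : X →ₗ[K] V} {W₀ : Submodule K V}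

theorem Cmp_inj (h : Cmp F F' j W₀) [FiniteDimensional K X] {x : X} (hx : j x ∈ W₀) : x = 0 := by
  obtain ⟨r, hr, hrj, hrW⟩ := h.exists_proj
  rw [← hrj x, hrW _ hx]

theorem Cmp_TS_lift (h : Cmp F F' j W₀) {U : Submodule K X} (hU : F'.TS U) : F.TS (W₀ ⊔ U.map j) := by
  refine TS_sup F h.ts ⟨?_, ?_⟩ ?_
  · rintro _ ⟨x, hx, rfl⟩
    rw [h.jQ, hU.1 x hx]
  · rintro _ ⟨x, hx, rfl⟩ _ ⟨y, hy, rfl⟩
    rw [h.jB, hU.2 x hx y hy]
  · rintro w hw _ ⟨x, hx, rfl⟩
    exact F.B_eq_zero (h.j1 x w hw)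

theorem Cmp_comap_lift (h : Cmp F F' j W₀) [FiniteDimensional K X] (U : Submodule K X) :
    (W₀ ⊔ U.map j).comap j = U := by
  ext x
  constructor
  · intro hx
    obtain ⟨w, hw, y, hy, e⟩ := Submodule.mem_sup.1 (show j x ∈ W₀ ⊔ U.map j from hx)
    obtain ⟨u, hu, rfl⟩ := hy
    have h1 : j (x - u) ∈ W₀ := by
      rw [map_sub, ← e, add_sub_cancel_right]
      exact hw
    have h2 := Cmp_inj h h1
    rw [sub_eq_zero.1 h2]
    exact hu
  · intro hx
    exact (le_sup_right : U.map j ≤ W₀ ⊔ U.map j) ⟨x, hx, rfl⟩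

theorem Cmp_lift_comap (h : Cmp F F' j W₀) {L : Submodule K V} (hL : F.TS L) (hW : W₀ ≤ L) :
    W₀ ⊔ (L.comap j).map j = L := by
  apply le_antisymm
  · refine sup_le hW ?_
    rintro _ ⟨x, hx, rfl⟩
    exact hx
  · intro v hv
    obtain ⟨w, hw, x, rfl⟩ := h.j2 v (fun w hw => hL.2 v hv w (hW hw))
    refine Submodule.add_mem_sup hw ⟨x, ?_, rfl⟩
    have := L.sub_mem hv (hW hw)
    rwa [add_sub_cancel_left] at this

theorem Cmp_TS_comap (h : Cmp F F' j W₀) {L : Submodule K V} (hL : F.TS L) : F'.TS (L.comap j) := by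
  refine ⟨fun x hx => ?_, fun x hx y hy => ?_⟩
  · rw [← h.jQ]
    exact hL.1 _ hx
  · rw [← h.jB]
    exact hL.2 _ hx _ hy

theorem Mx_lift (h : Cmp F F' j W₀) [FiniteDimensional K X] {U : Submodule K X} (hU : Mx F' U) :
    Mx F (W₀ ⊔ U.map j) := by
  refine ⟨Cmp_TS_lift h hU.1, fun L hL hle => ?_⟩
  have h1 : L.comap j = U := hU.2 _ (Cmp_TS_comap h hL) (by
    rw [← Cmp_comap_lift h U]
    exact Submodule.comap_mono hle)
  rw [← Cmp_lift_comap h hL (le_sup_left.trans hle), h1]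

theorem Mx_comap (h : Cmp F F' j W₀) [FiniteDimensional K X] {L : Submodule K V} (hL : Mx F L) (hW : W₀ ≤ L) :
    Mx F' (L.comap j) := by
  refine ⟨Cmp_TS_comap h hL.1, fun U hU hle => ?_⟩
  have h1 : W₀ ⊔ U.map j = L := hL.2 _ (Cmp_TS_lift h hU) (by
    conv_lhs => rw [← Cmp_lift_comap h hL.1 hW]
    exact sup_le_sup_left (Submodule.map_mono hle) _)
  rw [← h1, Cmp_comap_lift h]

/-- the action on the lifted subspaces -/
theorem map_lift (_ : Cmp F F' j W₀) {g : stabW F.iso.subtype W₀} {b : F'.iso}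
    (hg : ∀ x, ((g : F.iso) : V ≃ₗ[K] V) (j x) - j ((b : X ≃ₗ[K] X) x) ∈ W₀) (U : Submodule K X) :
    (W₀ ⊔ U.map j).map (F.iso.subtype (g : F.iso) : V →ₗ[K] V) =
      W₀ ⊔ (U.map (F'.iso.subtype b : X →ₗ[K] X)).map j := by
  have h0 : W₀.map (F.iso.subtype (g : F.iso) : V →ₗ[K] V) = W₀ := g.2
  rw [Submodule.map_sup, h0]
  apply le_antisymm
  · refine sup_le le_sup_left ?_
    rintro _ ⟨_, ⟨x, hx, rfl⟩, rfl⟩
    change ((g : F.iso) : V ≃ₗ[K] V) (j x) ∈ _
    have : ((g : F.iso) : V ≃ₗ[K] V) (j x) =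
        (((g : F.iso) : V ≃ₗ[K] V) (j x) - j ((b : X ≃ₗ[K] X) x)) + j ((b : X ≃ₗ[K] X) x) := by abel
    rw [this]
    exact Submodule.add_mem_sup (hg x) ⟨_, ⟨x, hx, rfl⟩, rfl⟩
  · refine sup_le le_sup_left ?_
    rintro _ ⟨_, ⟨x, hx, rfl⟩, rfl⟩
    change j ((b : X ≃ₗ[K] X) x) ∈ _
    have : j ((b : X ≃ₗ[K] X) x) =
        -(((g : F.iso) : V ≃ₗ[K] V) (j x) - j ((b : X ≃ₗ[K] X) x)) + ((g : F.iso) : V ≃ₗ[K] V) (j x) := by abel
    rw [this]
    exact Submodule.add_mem_sup (W₀.neg_mem (hg x)) ⟨_, ⟨x, hx, rfl⟩, rfl⟩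

theorem map_lift_eq (h : Cmp F F' j W₀) [FiniteDimensional K X] {g : stabW F.iso.subtype W₀} {b : F'.iso}
    (hg : ∀ x, ((g : F.iso) : V ≃ₗ[K] V) (j x) - j ((b : X ≃ₗ[K] X) x) ∈ W₀) (U : Submodule K X) :
    (W₀ ⊔ U.map j).map (F.iso.subtype (g : F.iso) : V →ₗ[K] V) = W₀ ⊔ U.map j ↔
      U.map (F'.iso.subtype b : X →ₗ[K] X) = U := by
  rw [map_lift h hg U]
  constructor
  · intro e
    have := congrArg (Submodule.comap j) e
    rwa [Cmp_comap_lift h, Cmp_comap_lift h] at this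
  · intro e
    rw [e]

/-- **the maximal totally singular subspaces above `W₀`** -/
theorem pm_eq_card (h : Cmp F F' j W₀) [FiniteDimensional K X] (g : stabW F.iso.subtype W₀) {b : F'.iso}
    (hg : ∀ x, ((g : F.iso) : V ≃ₗ[K] V) (j x) - j ((b : X ≃ₗ[K] X) x) ∈ W₀) :
    pm F g W₀ = (Nat.card {U : Submodule K X // Mx F' U ∧ U.map (F'.iso.subtype b : X →ₗ[K] X) = U} : ℂ) := by
  unfold pm
  congr 1
  refine Nat.card_congr
    { toFun := fun L => ⟨L.1.comap j, Mx_comap h L.2.1 L.2.2.1, ?_⟩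
      invFun := fun U => ⟨W₀ ⊔ U.1.map j, Mx_lift h U.2.1, le_sup_left, (map_lift_eq h hg U.1).2 U.2.2⟩
      left_inv := fun L => Subtype.ext (Cmp_lift_comap h L.2.1.1 L.2.2.1)
      right_inv := fun U => Subtype.ext (Cmp_comap_lift h U.1) }
  rw [← map_lift_eq h hg, Cmp_lift_comap h L.2.1.1 L.2.2.1]
  exact L.2.2.2

/-- the permutation character at another point -/
theorem pm_conj (x g : F.iso) (W : Submodule K V) :
    pm F (x * g * x⁻¹) (W.map (F.iso.subtype x : V →ₗ[K] V)) = pm F g W := by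
  have hx : ∀ U : Submodule K V, (U.map (F.iso.subtype x⁻¹ : V →ₗ[K] V)).map (F.iso.subtype x : V →ₗ[K] V) = U := by
    intro U
    rw [← map_mul_apply, mul_inv_cancel, map_one]
    exact Submodule.map_id _
  have hx' : ∀ U : Submodule K V, (U.map (F.iso.subtype x : V →ₗ[K] V)).map (F.iso.subtype x⁻¹ : V →ₗ[K] V) = U := by
    intro U
    rw [← map_mul_apply, inv_mul_cancel, map_one]
    exact Submodule.map_id _
  have hM : ∀ (y : F.iso) (U : Submodule K V), Mx F U → Mx F (U.map (F.iso.subtype y : V →ₗ[K] V)) := by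
    intro y U hU
    refine ⟨hU.1.map y, fun U' hU' hle => ?_⟩
    have h1 : (U.map (F.iso.subtype y : V →ₗ[K] V)).map (F.iso.subtype y⁻¹ : V →ₗ[K] V) = U := by
      rw [← map_mul_apply, inv_mul_cancel, map_one]
      exact Submodule.map_id _
    have h2 := hU.2 _ (hU'.map y⁻¹) (by
      conv_lhs => rw [← h1]
      exact Submodule.map_mono hle)
    have h3 : (U'.map (F.iso.subtype y⁻¹ : V →ₗ[K] V)).map (F.iso.subtype y : V →ₗ[K] V) = U' := by
      rw [← map_mul_apply, mul_inv_cancel, map_one]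
      exact Submodule.map_id _
    rw [← h3]
    exact congrArg _ h2
  unfold pm
  congr 1
  refine Nat.card_congr
    { toFun := fun U => ⟨U.1.map (F.iso.subtype x⁻¹ : V →ₗ[K] V), hM _ _ U.2.1, ?_, ?_⟩
      invFun := fun U => ⟨U.1.map (F.iso.subtype x : V →ₗ[K] V), hM _ _ U.2.1, Submodule.map_mono U.2.2.1, ?_⟩
      left_inv := fun U => Subtype.ext (hx _)
      right_inv := fun U => Subtype.ext (hx' _) }
  · have := Submodule.map_mono (f := (F.iso.subtype x⁻¹ : V →ₗ[K] V)) U.2.2.1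
    rwa [hx'] at this
  · conv_rhs => rw [← U.2.2.2]
    rw [← map_mul_apply, ← map_mul_apply]
    congr 3
    group
  · conv_rhs => rw [← U.2.2.2]
    rw [← map_mul_apply, ← map_mul_apply]
    congr 3
    group

end Lift

end Cfsg.Agent.H428.HT
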