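import Cfsg.Agent.H477.HC.VPt

/-!
# S4933, unitary primes: vanishing for the permutation character on the maximal totally singular subspaces (helper428)

* `van_of_root_S` : `van_of_root` with `L ≤ S`;
* `Mx` : maximal totally singular subspaces; **`van_max`** : the vanishing at an orthogonal disjoint pair on the common
  stabiliser with two maximal totally singular subspaces;
* `pm` : the number of the `g`-invariant maximal totally singular subspaces above `W`; **`sum_max`**, **`van_pm`**.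
-/

set_option autoImplicit false

open scoped ComplexConjugate
open Cfsg

namespace Cfsg.Agent.H428.HT

open Cfsg.Agent.OddOrderCharacters.Clifford Cfsg.Agent.Characters MulAction Module Cfsg.Agent.H53.HC
open Cfsg.Agent.H477.HC Cfsg.Agent.H477.HC.CForm

universe u v w

variable {K : Type u} [Field K] {V : Type v} [AddCommGroup V] [Module K V] {F : CForm K V}

/-- the sum over a subgroup of a function which is cut off -/
theorem sum_inf_eq {G : Type*} [Group G] (L S : Subgroup G) [Fintype L] [Fintype ↥(L ⊓ S)] (f : G → ℂ)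
    (hf : ∀ g ∈ L, g ∉ S → f g = 0) : ∑ l : L, f l = ∑ l : ↥(L ⊓ S), f l := by
  classical
  let T : Subgroup L := S.subgroupOf L
  let _ : Fintype T := Fintype.ofFinite _
  rw [sum_eq_sum_subgroup T (fun l : L => f l) (fun g hg => hf g g.2 hg)]
  exact Fintype.sum_equiv
    { toFun := fun t : T => (⟨t.1.1, t.1.2, t.2⟩ : ↥(L ⊓ S))
      invFun := fun s => ⟨⟨s.1, s.2.1⟩, s.2.2⟩
      left_inv := fun _ => rfl
      right_inv := fun _ => rfl } _ _ fun _ => rfl

/-- `van_of_root` with `L ≤ S` -/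
theorem van_of_root_S [FiniteDimensional K V] [Finite V] {k : ℕ} {c : GL (Fin k) K → ℂ}
    (hcf : IsClassFunction _ c) (hcusp : IsCusp c) {W₀ W' : Submodule K V} (hW₀ : finrank K W₀ = k)
    (hW' : finrank K W' = k) (D : Submodule K V) (hD : D ≤ W₀) (hD0 : D ≠ ⊥) (hD1 : D ≠ W₀) (S : Subgroup F.iso)
    (hgen : ∀ c ∈ D, ∀ f : W₀ →ₗ[K] K, (∀ w : W₀, (w : V) ∈ D → f w = 0) →
      ∃ g ∈ S, (∀ w' ∈ W', (g : V ≃ₗ[K] V) w' = w') ∧ ∀ w : W₀, (g : V ≃ₗ[K] V) w = w + f w • c) :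
    ∃ L : Subgroup F.iso, L ≤ stabW F.iso.subtype W₀ ∧ L ≤ stabW F.iso.subtype W' ∧ L ≤ S ∧
      ∀ [Fintype L], ∑ l : L, flagTerm F.iso.subtype c l W₀ * conj (flagTerm F.iso.subtype c l W') = 0 := by
  classical
  let ψ : F.iso → Submodule K V → ℂ := fun g _ => if g ∈ S then 1 else 0
  have hψ : ∀ g ∈ S, ∀ W, ψ g W = 1 := fun g hg W => if_pos hg
  obtain ⟨L, h1, h2, h3⟩ := van_of_root (F := F) hcf hcusp (ψ := ψ) hW₀ hW' D hD hD0 hD1 S
    (fun g hg => ⟨(hψ g hg W₀).trans (hψ 1 S.one_mem W₀).symm, (hψ g hg W').trans (hψ 1 S.one_mem W').symm⟩) hgen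
  have hfinV : Finite (V ≃ₗ[K] V) := Finite.of_injective (fun e : V ≃ₗ[K] V => (e : V → V)) DFunLike.coe_injective
  refine ⟨L ⊓ S, inf_le_left.trans h1, inf_le_left.trans h2, inf_le_right, fun {_} => ?_⟩
  let _ : Fintype L := Fintype.ofFinite _
  have h4 := h3
  rw [sum_inf_eq L S (fun l => (flagTerm F.iso.subtype c l W₀ * ψ l W₀) * conj (flagTerm F.iso.subtype c l W' * ψ l W'))
    (fun g _ hg => by
      have : ψ g W₀ = 0 := if_neg hg
      rw [this, mul_zero, zero_mul])] at h4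
  rw [← h4]
  refine Finset.sum_congr rfl fun l _ => ?_
  rw [hψ l l.2.2 W₀, mul_one, mul_one]

/-- maximal totally singular subspaces -/
def Mx (F : CForm K V) (U : Submodule K V) : Prop := F.TS U ∧ ∀ U', F.TS U' → U ≤ U' → U' = U

/-- a singular vector orthogonal to a maximal totally singular subspace belongs to it -/
theorem Mx.mem {U : Submodule K V} (hU : Mx F U) {v : V} (hv : F.Sing v) (h : v ∈ F.perp U) : v ∈ U := by
  have h1 : F.TS (U ⊔ (K ∙ v)) := by
    refine ⟨?_, ?_⟩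
    · intro w hw
      obtain ⟨u, hu, y, hy, rfl⟩ := Submodule.mem_sup.1 hw
      obtain ⟨t, rfl⟩ := Submodule.mem_span_singleton.1 hy
      rw [F.Q_add, F.Q_smul, hU.1.1 u hu, hv.1, F.B_smul_right, F.B_eq_zero (h u hu), mul_zero, mul_zero, T_zero,
        add_zero, add_zero]
    · intro w hw w' hw'
      obtain ⟨u, hu, y, hy, rfl⟩ := Submodule.mem_sup.1 hw
      obtain ⟨t, rfl⟩ := Submodule.mem_span_singleton.1 hy
      obtain ⟨u', hu', y', hy', rfl⟩ := Submodule.mem_sup.1 hw'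
      obtain ⟨t', rfl⟩ := Submodule.mem_span_singleton.1 hy'
      rw [F.B_add_left, F.B_add_right, F.B_add_right, F.B_smul_left, F.B_smul_left, F.B_smul_right, F.B_smul_right,
        hU.1.2 u hu u' hu', hv.2, h u' hu', F.B_eq_zero (h u hu)]
      ring
  have h2 := hU.2 _ h1 le_sup_left
  rw [← h2]
  exact Submodule.mem_sup_right (Submodule.mem_span_singleton_self v)

/-- the main case: `W₀` is not contained in `Lam'` -/
theorem van_max_aux [FiniteDimensional K V] [Finite V] {k : ℕ} (hk : 2 ≤ k) {c : GL (Fin k) K → ℂ}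
    (hcf : IsClassFunction _ c) (hcusp : IsCusp c) {W₀ W' Lam Lam' : Submodule K V} (hW₀ : W₀ ∈ F.Om k)
    (hW' : W' ∈ F.Om k) (hperp : W₀ ≤ F.perp W') (hL : Mx F Lam) (hL' : Mx F Lam')
    (h1 : W₀ ≤ Lam) (h2 : W' ≤ Lam') (hnot : ¬ W₀ ≤ Lam') :
    ∃ L : Subgroup F.iso, L ≤ stabW F.iso.subtype W₀ ∧ L ≤ stabW F.iso.subtype W' ∧
      L ≤ stabW F.iso.subtype Lam ⊓ stabW F.iso.subtype Lam' ∧
      ∀ [Fintype L], ∑ l : L, flagTerm F.iso.subtype c l W₀ * conj (flagTerm F.iso.subtype c l W') = 0 := by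
  classical
  -- functionals on `W₀` killing `W₀ ⊓ Lam'`
  have hfun : ∀ f : W₀ →ₗ[K] K, (∀ w : W₀, (w : V) ∈ Lam' → f w = 0) → ∃ b ∈ Lam', ∀ w : W₀, f w = F.B w b := by
    intro f hf
    exact F.exists_pair W₀ Lam' f fun a ha => hf a (hL'.mem (hW₀.1.sing a.2) fun b hb => ha b hb)
  have root : ∀ x ∈ W₀, ∀ b ∈ Lam', F.B x b = 0 → ∃ g ∈ stabW F.iso.subtype Lam ⊓ stabW F.iso.subtype Lam',
      (∀ w' ∈ W', (g : V ≃ₗ[K] V) w' = w') ∧ ∀ w : W₀, (g : V ≃ₗ[K] V) w = w + F.B w b • x := by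
    intro x hx b hb hxb
    obtain ⟨g, hg⟩ := F.exists_root (hW₀.1.sing hx) (hL'.1.sing hb) hxb
    refine ⟨g, ⟨map_eq_of_le F.iso.subtype fun v hv => ?_, map_eq_of_le F.iso.subtype fun v hv => ?_⟩,
      fun w' hw' => ?_, fun w => ?_⟩
    · change (g : V ≃ₗ[K] V) v ∈ Lam
      rw [hg, hL.1.2 v hv x (h1 hx)]
      have : v + F.B v b • x - (F.ε⁻¹ * 0) • b = v + F.B v b • x := by module
      rw [this]
      exact Lam.add_mem hv (Lam.smul_mem _ (h1 hx))
    · change (g : V ≃ₗ[K] V) v ∈ Lam'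
      rw [hg, hL'.1.2 v hv b hb]
      have : v + (0 : K) • x - (F.ε⁻¹ * F.B v x) • b = v + (-(F.ε⁻¹ * F.B v x)) • b := by module
      rw [this]
      exact Lam'.add_mem hv (Lam'.smul_mem _ hb)
    · rw [hg, hL'.1.2 w' (h2 hw') b hb, F.B_eq_zero (hperp hx w' hw')]
      module
    · rw [hg, hW₀.1.2 w w.2 x hx]
      module
  by_cases hA : W₀ ⊓ Lam' = ⊥
  · obtain ⟨x, hx, hx0⟩ : ∃ x ∈ W₀, x ≠ 0 := by
      by_contra h
      push Not at h
      have : W₀ = ⊥ := (Submodule.eq_bot_iff _).2 h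
      have h2 := hW₀.2
      rw [this, finrank_bot] at h2
      omega
    refine van_of_root_S hcf hcusp hW₀.2 hW'.2 (K ∙ x) ((Submodule.span_singleton_le_iff_mem _ _).2 hx)
      (fun h => hx0 (Submodule.span_singleton_eq_bot.1 h)) (fun h => ?_) _ fun y hy f hf => ?_
    · have h2 := hW₀.2
      rw [← h, finrank_span_singleton hx0] at h2
      omega
    · have hyW : y ∈ W₀ := ((Submodule.span_singleton_le_iff_mem _ _).2 hx) hy
      obtain ⟨b, hb, hfb⟩ := hfun f fun w hw => by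
        have : (w : V) ∈ W₀ ⊓ Lam' := ⟨w.2, hw⟩
        rw [hA] at this
        have e : w = 0 := Subtype.ext ((Submodule.mem_bot K).1 this)
        rw [e, map_zero]
      obtain ⟨g, hg1, hg2, hg3⟩ := root y hyW b hb (by rw [← hfb ⟨y, hyW⟩, hf ⟨y, hyW⟩ hy])
      exact ⟨g, hg1, hg2, fun w => by rw [hg3, hfb]⟩
  · refine van_of_root_S hcf hcusp hW₀.2 hW'.2 (W₀ ⊓ Lam') inf_le_left hA (fun h => hnot (inf_eq_left.1 h)) _
      fun y hy f hf => ?_
    obtain ⟨b, hb, hfb⟩ := hfun f fun w hw => hf w ⟨w.2, hw⟩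
    obtain ⟨g, hg1, hg2, hg3⟩ := root y hy.1 b hb (hL'.1.2 y hy.2 b hb)
    exact ⟨g, hg1, hg2, fun w => by rw [hg3, hfb]⟩

/-- **the vanishing at an orthogonal disjoint pair**, on the stabiliser of two maximal totally singular subspaces -/
theorem van_max [FiniteDimensional K V] [Finite V] {k : ℕ} (hk : 2 ≤ k) {c : GL (Fin k) K → ℂ}
    (hcf : IsClassFunction _ c) (hcusp : IsCusp c) {W₀ W' Lam Lam' : Submodule K V} (hW₀ : W₀ ∈ F.Om k)
    (hW' : W' ∈ F.Om k) (hperp : W₀ ≤ F.perp W') (h0 : W₀ ⊓ W' = ⊥) (hL : Mx F Lam) (hL' : Mx F Lam')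
    (h1 : W₀ ≤ Lam) (h2 : W' ≤ Lam') :
    ∃ L : Subgroup F.iso, L ≤ stabW F.iso.subtype W₀ ∧ L ≤ stabW F.iso.subtype W' ∧
      L ≤ stabW F.iso.subtype Lam ∧ L ≤ stabW F.iso.subtype Lam' ∧
      ∀ [Fintype L], ∑ l : L, flagTerm F.iso.subtype c l W₀ * conj (flagTerm F.iso.subtype c l W') = 0 := by
  classical
  by_cases hn : W₀ ≤ Lam'
  swap
  · obtain ⟨L, e1, e2, e3, e4⟩ := van_max_aux hk hcf hcusp hW₀ hW' hperp hL hL' h1 h2 hn
    exact ⟨L, e1, e2, e3.trans inf_le_left, e3.trans inf_le_right, e4⟩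
  by_cases hn' : W' ≤ Lam
  swap
  · have hperp' : W' ≤ F.perp W₀ := fun w hw w0 hw0 => F.B_eq_zero (hperp hw0 w hw)
    obtain ⟨L, e1, e2, e3, e4⟩ := van_max_aux hk hcf hcusp hW' hW₀ hperp' hL' hL h2 h1 hn'
    refine ⟨L, e2, e1, e3.trans inf_le_right, e3.trans inf_le_left, fun {_} => ?_⟩
    have h5 := congrArg conj e4
    rw [map_sum, map_zero] at h5
    rw [← h5]
    refine Finset.sum_congr rfl fun l _ => ?_
    rw [map_mul, Complex.conj_conj, mul_comm]
  obtain ⟨x, hx, hx0⟩ : ∃ x ∈ W₀, x ≠ 0 := by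
    by_contra h
    push Not at h
    have : W₀ = ⊥ := (Submodule.eq_bot_iff _).2 h
    have h2 := hW₀.2
    rw [this, finrank_bot] at h2
    omega
  obtain ⟨L, e1, e2, e3, e4⟩ := van_of_root_S (F := F) hcf hcusp hW₀.2 hW'.2 (K ∙ x)
    ((Submodule.span_singleton_le_iff_mem _ _).2 hx) (fun h => hx0 (Submodule.span_singleton_eq_bot.1 h)) (fun h => by
      have h2 := hW₀.2
      rw [← h, finrank_span_singleton hx0] at h2
      omega) (stabW F.iso.subtype Lam ⊓ stabW F.iso.subtype Lam') (fun y hy f hf => by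
    have hyW : y ∈ W₀ := ((Submodule.span_singleton_le_iff_mem _ _).2 hx) hy
    by_cases hf0 : f = 0
    · refine ⟨1, Subgroup.one_mem _, fun _ _ => rfl, fun w => ?_⟩
      rw [hf0, LinearMap.zero_apply, zero_smul, add_zero]
      rfl
    obtain ⟨b, hb, hb1, hb2⟩ := exists_sing_dual hW₀.1 hperp f (fun w hw => by
      have : (w : V) ∈ W₀ ⊓ W' := ⟨w.2, hw⟩
      rw [h0] at this
      have e : w = 0 := Subtype.ext ((Submodule.mem_bot K).1 this)
      rw [e, map_zero]) hf0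
    have hyb : F.B y b = 0 := by rw [← hb1 ⟨y, hyW⟩, hf ⟨y, hyW⟩ hy]
    obtain ⟨g, hg⟩ := F.exists_root (hW₀.1.sing hyW) hb hyb
    have hst : ∀ U : Submodule K V, F.TS U → W₀ ≤ U → g ∈ stabW F.iso.subtype U := by
      intro U hU hWU
      refine map_eq_of_le F.iso.subtype fun v hv => ?_
      change (g : V ≃ₗ[K] V) v ∈ U
      rw [hg, hU.2 v hv y (hWU hyW)]
      have : v + F.B v b • y - (F.ε⁻¹ * 0) • b = v + F.B v b • y := by module
      rw [this]
      exact U.add_mem hv (U.smul_mem _ (hWU hyW))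
    refine ⟨g, ⟨hst _ hL.1 h1, hst _ hL'.1 hn⟩, fun w' hw' => ?_, fun w => ?_⟩
    · rw [hg, hb2 w' hw', F.B_eq_zero (hperp hyW w' hw')]
      module
    · rw [hg, hb1, hW₀.1.2 w w.2 y hyW]
      module)
  exact ⟨L, e1, e2, e3.trans inf_le_left, e3.trans inf_le_right, e4⟩

/-! ### The permutation character -/

/-- the number of the `g`-invariant maximal totally singular subspaces above `W` -/
noncomputable def pm (F : CForm K V) (g : F.iso) (W : Submodule K V) : ℂ :=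
  (Nat.card {U : Submodule K V // Mx F U ∧ W ≤ U ∧ U.map (F.iso.subtype g : V →ₗ[K] V) = U} : ℂ)

theorem finite_sub [Finite V] : Finite (Submodule K V) :=
  Finite.of_injective (fun W : Submodule K V => (W : Set V)) SetLike.coe_injective

open Classical in
theorem pm_eq [Finite V] [Fintype {U : Submodule K V // Mx F U}] (g : F.iso) (W : Submodule K V) :
    pm F g W = ∑ U : {U : Submodule K V // Mx F U},
      if W ≤ U.1 ∧ U.1.map (F.iso.subtype g : V →ₗ[K] V) = U.1 then (1 : ℂ) else 0 := by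
  rw [Finset.sum_ite, Finset.sum_const_zero, add_zero, Finset.sum_const, nsmul_eq_mul, mul_one, pm]
  congr 1
  rw [← Fintype.card_subtype, ← Nat.card_eq_fintype_card]
  exact Nat.card_congr
    { toFun := fun U => ⟨⟨U.1, U.2.1⟩, U.2.2⟩
      invFun := fun U => ⟨U.1.1, U.1.2, U.2⟩
      left_inv := fun _ => rfl
      right_inv := fun _ => rfl }

/-- orthogonality on the common stabiliser, from a subgroup -/
theorem sum_stab [FiniteDimensional K V] [Finite V] {k : ℕ} {c : GL (Fin k) K → ℂ} (hc : IsCharacter _ c)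
    {W₀ W' : Submodule K V} (hW₀ : W₀ ∈ F.Om k) (hW' : W' ∈ F.Om k) (S : Subgroup F.iso) [Fintype S]
    (hS : S ≤ stabW F.iso.subtype W₀) (hS' : S ≤ stabW F.iso.subtype W') (L : Subgroup F.iso) (hL : L ≤ S)
    (h : ∀ [Fintype L], ∑ l : L, flagTerm F.iso.subtype c l W₀ * conj (flagTerm F.iso.subtype c l W') = 0) :
    ∑ l : S, flagTerm F.iso.subtype c l W₀ * conj (flagTerm F.iso.subtype c l W') = 0 := by
  classical
  have hfinV : Finite (V ≃ₗ[K] V) := Finite.of_injective (fun e : V ≃ₗ[K] V => (e : V → V)) DFunLike.coe_injective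
  let _ : Fintype L := Fintype.ofFinite _
  have h1 := classInner_eq_zero_of_comp (Subgroup.inclusion hL) (isCharacter_cl hc hW₀.2 S hS)
    (isCharacter_cl hc hW'.2 S hS') (by
      rw [Core.classInner_def]
      rw [show (∑ l : L, ((fun l : S => flagTerm F.iso.subtype c (l : F.iso) W₀) ∘ (Subgroup.inclusion hL)) l *
        conj (((fun l : S => flagTerm F.iso.subtype c (l : F.iso) W') ∘ (Subgroup.inclusion hL)) l)) = 0 from h,
        mul_zero])
  rw [Core.classInner_def] at h1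
  rcases mul_eq_zero.1 h1 with h3 | h3
  · exact absurd h3 (inv_ne_zero card_ne_zero')
  · exact h3

/-- **the vanishing for the permutation character** -/
theorem sum_max [FiniteDimensional K V] [Finite V] {k : ℕ} (hk : 2 ≤ k) {c : GL (Fin k) K → ℂ}
    (hc : IsCharacter _ c) (hcusp : IsCusp c) {W₀ W' : Submodule K V} (hW₀ : W₀ ∈ F.Om k)
    (hW' : W' ∈ F.Om k) (hperp : W₀ ≤ F.perp W') (h0 : W₀ ⊓ W' = ⊥)
    [iT : Fintype ↥(stabW F.iso.subtype W₀ ⊓ stabW F.iso.subtype W')] :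
    ∑ g : ↥(stabW F.iso.subtype W₀ ⊓ stabW F.iso.subtype W'), (flagTerm F.iso.subtype c g W₀ * pm F g W₀) *
      conj (flagTerm F.iso.subtype c g W' * pm F g W') = 0 := by
  classical
  have hfinV : Finite (V ≃ₗ[K] V) := Finite.of_injective (fun e : V ≃ₗ[K] V => (e : V → V)) DFunLike.coe_injective
  have hfs : Finite (Submodule K V) := finite_sub
  let _ : Fintype {U : Submodule K V // Mx F U} := Fintype.ofFinite _
  let T : Subgroup F.iso := stabW F.iso.subtype W₀ ⊓ stabW F.iso.subtype W'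
  let _ : Fintype T := iT
  have hcf := Core.isCharacter_isClassFunction hc
  have key : ∀ U U' : {U : Submodule K V // Mx F U}, ∑ g : T,
      (if (W₀ ≤ U.1 ∧ U.1.map (F.iso.subtype (g : F.iso) : V →ₗ[K] V) = U.1) ∧
        (W' ≤ U'.1 ∧ U'.1.map (F.iso.subtype (g : F.iso) : V →ₗ[K] V) = U'.1) then
        flagTerm F.iso.subtype c g W₀ * conj (flagTerm F.iso.subtype c g W') else 0) = 0 := by
    intro U U'
    by_cases hU : W₀ ≤ U.1 ∧ W' ≤ U'.1
    swap
    · refine Finset.sum_eq_zero fun g _ => if_neg fun h => hU ⟨h.1.1, h.2.1⟩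
    let S : Subgroup F.iso := stabW F.iso.subtype U.1 ⊓ stabW F.iso.subtype U'.1
    let _ : Fintype ↥(T ⊓ S) := Fintype.ofFinite _
    rw [sum_inf_eq T S (fun g => if (W₀ ≤ U.1 ∧ U.1.map (F.iso.subtype (g : F.iso) : V →ₗ[K] V) = U.1) ∧
        (W' ≤ U'.1 ∧ U'.1.map (F.iso.subtype (g : F.iso) : V →ₗ[K] V) = U'.1) then
        flagTerm F.iso.subtype c g W₀ * conj (flagTerm F.iso.subtype c g W') else 0)
      (fun g _ hg => if_neg fun h => hg ⟨h.1.2, h.2.2⟩)]
    obtain ⟨L, e1, e2, e3, e4, e5⟩ := van_max hk hcf hcusp hW₀ hW' hperp h0 U.2 U'.2 hU.1 hU.2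
    rw [← sum_stab hc hW₀ hW' (T ⊓ S) (inf_le_left.trans inf_le_left) (inf_le_left.trans inf_le_right) L
      (le_inf (le_inf e1 e2) (le_inf e3 e4)) e5]
    refine Finset.sum_congr rfl fun g _ => if_pos ⟨⟨hU.1, g.2.2.1⟩, ⟨hU.2, g.2.2.2⟩⟩
  calc ∑ g : T, (flagTerm F.iso.subtype c g W₀ * pm F g W₀) * conj (flagTerm F.iso.subtype c g W' * pm F g W')
      = ∑ g : T, ∑ U : {U : Submodule K V // Mx F U}, ∑ U' : {U : Submodule K V // Mx F U},
          (if (W₀ ≤ U.1 ∧ U.1.map (F.iso.subtype (g : F.iso) : V →ₗ[K] V) = U.1) ∧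
            (W' ≤ U'.1 ∧ U'.1.map (F.iso.subtype (g : F.iso) : V →ₗ[K] V) = U'.1) then
            flagTerm F.iso.subtype c g W₀ * conj (flagTerm F.iso.subtype c g W') else 0) := by
        refine Finset.sum_congr rfl fun g _ => ?_
        rw [pm_eq, pm_eq, map_mul, map_sum, mul_mul_mul_comm, Finset.sum_mul_sum, Finset.mul_sum]
        refine Finset.sum_congr rfl fun U _ => ?_
        rw [Finset.mul_sum]
        refine Finset.sum_congr rfl fun U' _ => ?_
        rw [apply_ite conj, map_one, map_zero]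
        by_cases hP : W₀ ≤ U.1 ∧ U.1.map (F.iso.subtype (g : F.iso) : V →ₗ[K] V) = U.1
        · by_cases hQ : W' ≤ U'.1 ∧ U'.1.map (F.iso.subtype (g : F.iso) : V →ₗ[K] V) = U'.1
          · rw [if_pos hP, if_pos hQ, if_pos ⟨hP, hQ⟩, mul_one, mul_one]
          · rw [if_neg hQ, mul_zero, mul_zero]
            exact (if_neg fun h => hQ h.2).symm
        · rw [if_neg hP, zero_mul, mul_zero]
          exact (if_neg fun h => hP h.1).symm
    _ = 0 := by
        rw [Finset.sum_comm]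
        refine Finset.sum_eq_zero fun U _ => ?_
        rw [Finset.sum_comm]
        exact Finset.sum_eq_zero fun U' _ => key U U'

/-- **the vanishing condition** `Van` for `ψ = pm` -/
theorem van_pm [FiniteDimensional K V] [Finite V] {k : ℕ} (hk : 2 ≤ k) {c : GL (Fin k) K → ℂ}
    (hc : IsCharacter _ c) (hcusp : IsCusp c) {W₀ W' : Submodule K V} (hW₀ : W₀ ∈ F.Om k)
    (hW' : W' ∈ F.Om k) (hperp : W₀ ≤ F.perp W') (h0 : W₀ ⊓ W' = ⊥) : F.Van c (pm F) W₀ W' :=
  ⟨stabW F.iso.subtype W₀ ⊓ stabW F.iso.subtype W', inf_le_left, inf_le_right, fun {_} =>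
    sum_max hk hc hcusp hW₀ hW' hperp h0⟩

end Cfsg.Agent.H428.HT
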